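import Cfsg.Agent.H58.ExtField.Main

/-!
# The count: the only possible exception is the quadratic extension of the field of two elements
-/

set_option autoImplicit false
set_option linter.unusedSectionVars false
set_option linter.unusedVariables false
set_option linter.style.haveILetI false

namespace Cfsg.Agent.H58.ExtField

open scoped Matrix

variable {ι : Type} [Fintype ι] [DecidableEq ι] {F : Type*} [Field F] [Fintype F]
variable {E : Type*} [Field E] [Fintype E] [Algebra F E] [Module E (ι → F)] [IsScalarTower F E (ι → F)]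
variable {M : Subgroup (GL ι F)}

/-- If the translations have no endomorphisms but `E`, the stabiliser of `v` and of its line acts on the line by
field automorphisms. -/
theorem Ctx.line_aut (H : Ctx E M) {v : ι → F} (hv : v ≠ 0)
    (hL : ∀ a ∈ preserver H hv, ∀ x : E, a x = a 1 * x) {h : GL ι F} (hh : h ∈ M)
    (h1 : (h : Matrix ι ι F) *ᵥ v = v)
    (h2 : ∀ c : E, (h : Matrix ι ι F) *ᵥ (c • v) ∈ Submodule.span E {v}) :
    ∃ A : E →ₐ[F] E, ∀ c : E, (h : Matrix ι ι F) *ᵥ (c • v) = A c • v := by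
  choose A hA using fun c => Submodule.mem_span_singleton.1 (h2 c)
  have hinj : Function.Injective fun c : E => c • v := smul_left_injective E hv
  let AL : E →ₗ[F] E :=
    { toFun := A
      map_add' := fun a b => hinj (by
        show A (a + b) • v = (A a + A b) • v
        rw [add_smul, hA, hA, hA, add_smul, Matrix.mulVec_add])
      map_smul' := fun t a => hinj (by
        show A (t • a) • v = (t • A a) • v
        rw [hA, smul_assoc, smul_assoc, hA, Matrix.mulVec_smul]) }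
  have hALinj : Function.Injective AL := fun a b hab => by
    apply hinj
    apply H98.gl_mulVec_injective h
    show (h : Matrix ι ι F) *ᵥ (a • v) = (h : Matrix ι ι F) *ᵥ (b • v)
    rw [← hA, ← hA]
    exact congrArg (fun z : E => z • v) hab
  let Ae : E ≃ₗ[F] E := LinearEquiv.ofBijective AL ⟨hALinj, Finite.injective_iff_surjective.1 hALinj⟩
  have hAe : ∀ c, (h : Matrix ι ι F) *ᵥ (c • v) = Ae c • v := fun c => (hA c).symm
  have hAs : ∀ c, ((h⁻¹ : GL ι F) : Matrix ι ι F) *ᵥ (c • v) = Ae.symm c • v := fun c => by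
    conv_lhs => rw [← Ae.apply_symm_apply c, ← hAe, H98.gl_inv_mulVec]
  have hA1 : Ae 1 = 1 := hinj (by show Ae 1 • v = (1 : E) • v; rw [← hAe, one_smul, h1])
  have hS1 : Ae.symm 1 = 1 := by rw [Ae.symm_apply_eq, hA1]
  -- conjugation by `h` on the translations
  have hconj : ∀ (g : GL ι F) (B : E ≃ₗ[F] E), g ∈ M →
      (g : Matrix ι ι F) *ᵥ v = v →
      (∀ c, (g : Matrix ι ι F) *ᵥ (c • v) = B c • v) → ∀ b, InW M v b →
      InW M v ((B : E →ₗ[F] E) ∘ₗ b ∘ₗ Matrix.mulVecLin ((g⁻¹ : GL ι F) : Matrix ι ι F)) := by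
    intro g B hg hgv hgB b hb
    have hk : Kills ((B : E →ₗ[F] E) ∘ₗ b ∘ₗ Matrix.mulVecLin ((g⁻¹ : GL ι F) : Matrix ι ι F)) v := by
      intro c
      simp only [LinearMap.comp_apply, Matrix.mulVecLin_apply, LinearEquiv.coe_coe]
      conv_lhs => rw [← B.apply_symm_apply c, ← hgB, H98.gl_inv_mulVec, hb.1, map_zero]
    refine ⟨hk, (H98.gl_ext fun y => ?_ : el v ((B : E →ₗ[F] E) ∘ₗ b ∘ₗ Matrix.mulVecLin ((g⁻¹ : GL ι F) : Matrix ι ι F)) =
      g * el v b * g⁻¹) ▸
      mul_mem (mul_mem hg hb.2) (inv_mem hg)⟩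
    simp only [Units.val_mul, ← Matrix.mulVec_mulVec, el_mulVec hk, el_mulVec hb.1, Matrix.mulVec_add,
      H98.gl_mulVec_inv, hgB, LinearMap.comp_apply, Matrix.mulVecLin_apply, LinearEquiv.coe_coe]
  have hinv1 : ((h⁻¹ : GL ι F) : Matrix ι ι F) *ᵥ v = v := by
    conv_lhs => rw [← h1, H98.gl_inv_mulVec]
  have hmul : ∀ c y, Ae (c * y) = Ae c * Ae y := by
    intro c y
    have hpres : (Ae : E →ₗ[F] E) ∘ₗ LinearMap.mulLeft F c ∘ₗ (Ae.symm : E →ₗ[F] E) ∈ preserver H hv := by
      intro b hb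
      have hb1 := hconj h⁻¹ Ae.symm (inv_mem hh) hinv1 hAs b hb
      have hb2 := hconj h Ae hh h1 hAe _ (H.lmul_mem hv c _ hb1)
      convert hb2 using 1
      refine LinearMap.ext fun x => ?_
      simp only [LinearMap.comp_apply, Matrix.mulVecLin_apply, inv_inv, H98.gl_mulVec_inv]
    have := hL _ hpres (Ae y)
    simpa [hS1] using this
  refine ⟨AlgHom.ofLinearMap (Ae : E →ₗ[F] E) hA1 hmul, fun c => hAe c⟩

/-- The elements fixing some vectors. -/
def vecStab (S : Set (ι → F)) : Subgroup (GL ι F) where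
  carrier := {g | ∀ x ∈ S, (g : Matrix ι ι F) *ᵥ x = x}
  mul_mem' := fun {a b} ha hb x hx => by rw [Units.val_mul, ← Matrix.mulVec_mulVec, hb x hx, ha x hx]
  one_mem' := fun x _ => by simp
  inv_mem' := fun {a} ha x hx => by
    conv_lhs => rw [← ha x hx, H98.gl_inv_mulVec]

/-- The translations of `M` along the line of `v`. -/
def transGroup (M : Subgroup (GL ι F)) (E : Type*) [Field E] [Fintype E] [Algebra F E] [Module E (ι → F)]
    [IsScalarTower F E (ι → F)] (v : ι → F) : Subgroup (GL ι F) where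
  carrier := {g | ∃ b : (ι → F) →ₗ[F] E, InW M v b ∧ g = el v b}
  mul_mem' := by
    rintro _ _ ⟨a, ha, rfl⟩ ⟨b, hb, rfl⟩
    exact ⟨a + b, inW_add ha hb, el_mul ha.1 hb.1⟩
  one_mem' := ⟨0, inW_zero v, (el_zero v).symm⟩
  inv_mem' := by
    rintro _ ⟨a, ha, rfl⟩
    exact ⟨-a, ⟨fun x => by rw [LinearMap.neg_apply, ha.1, neg_zero], el_neg ha.1 ▸ inv_mem ha.2⟩,
      (el_neg ha.1).symm⟩

theorem isPGroup_transGroup {p : ℕ} [CharP F p] (v : ι → F) : IsPGroup p (transGroup M E v) := by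
  rintro ⟨g, b, hb, hg⟩
  refine ⟨1, Subtype.ext ?_⟩
  have e : g = uni (disp v b) (disp_sq hb.1) := hg.trans (dif_pos hb.1)
  rw [SubgroupClass.coe_pow, OneMemClass.coe_one, pow_one]
  show g ^ p = 1
  rw [e, uni_pow_char]

/-- Two scalars whose vectors are conjugate under the stabiliser of `v` are conjugate by a field automorphism. -/
theorem Ctx.conj_aut (H : Ctx E M) {v : ι → F} (hv : v ≠ 0)
    (hL : ∀ a ∈ preserver H hv, ∀ x : E, a x = a 1 * x) {c c' : E}
    (hc : c ∉ Set.range (algebraMap F E)) (hc' : c' ∉ Set.range (algebraMap F E))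
    {h : GL ι F} (hh : h ∈ M) (h1 : (h : Matrix ι ι F) *ᵥ v = v)
    (h2 : (h : Matrix ι ι F) *ᵥ (c • v) = c' • v) : ∃ A : E →ₐ[F] E, A c = c' := by
  classical
  obtain ⟨p, hp⟩ := CharP.exists F
  have : Fact p.Prime := ⟨CharP.char_is_prime F p⟩
  set G0 : Subgroup (GL ι F) := M ⊓ vecStab (Set.range fun a : E => a • v) with hG0
  set Mvl : E → Subgroup (GL ι F) := fun a => M ⊓ vecStab {v, a • v} with hMvl
  have hG0le : ∀ a, G0 ≤ Mvl a := fun a g hg => ⟨hg.1, by
    rintro x (rfl | rfl)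
    · exact hg.2 x ⟨1, one_smul E x⟩
    · exact hg.2 _ ⟨a, rfl⟩⟩
  have hT0 : transGroup M E v ≤ G0 := by
    rintro _ ⟨b, hb, rfl⟩
    refine ⟨hb.2, ?_⟩
    rintro _ ⟨a, rfl⟩
    rw [el_mulVec hb.1, hb.1, zero_smul, add_zero]
  obtain ⟨P, hP⟩ := ((isPGroup_transGroup (M := M) (E := E) (p := p) v).of_equiv
    (Subgroup.subgroupOfEquivOfLe hT0).symm).exists_le_sylow
  set U : Subgroup (GL ι F) := (P : Subgroup G0).map G0.subtype with hU
  have hUG : U ≤ G0 := Subgroup.map_subtype_le _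
  have hUp : IsPGroup p U := P.2.map _
  have hTU : transGroup M E v ≤ U := fun g hg => ⟨⟨g, hT0 hg⟩, hP hg, rfl⟩
  have hUmax : ∀ T : Subgroup (GL ι F), IsPGroup p T → T ≤ G0 → U ≤ T → T = U := by
    intro T hTp hTG hUT
    have := P.3 (Q := T.subgroupOf G0) (hTp.of_equiv (Subgroup.subgroupOfEquivOfLe hTG).symm)
      (fun x hx => hUT ⟨x, hx, rfl⟩)
    rw [hU, ← this, Subgroup.map_subgroupOf_eq_of_le hTG]
  -- the fixed points of `U` form the line of `v`
  have hfix : ∀ x, (∀ u ∈ U, (u : Matrix ι ι F) *ᵥ x = x) → x ∈ Submodule.span E {v} := by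
    intro x hx
    by_contra hxv
    obtain ⟨φ, f1, f2⟩ := exists_efunctional hxv
    have hφ : φ v = 0 := f2 v (Submodule.mem_span_singleton_self v)
    have := hx _ (hTU ⟨_, H.inW_lin hφ, rfl⟩)
    rw [el_mulVec (kills_lin hφ), LinearMap.restrictScalars_apply, f1, one_smul, add_eq_left] at this
    exact hv this
  have hstab : ∀ t : GL ι F, (∀ u ∈ U, t⁻¹ * u * t ∈ U) →
      ∀ a : E, (t : Matrix ι ι F) *ᵥ (a • v) ∈ Submodule.span E {v} := by
    intro t ht a
    refine hfix _ fun u hu => ?_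
    have := (hUG (ht u hu)).2 (a • v) ⟨a, rfl⟩
    calc (u : Matrix ι ι F) *ᵥ ((t : Matrix ι ι F) *ᵥ (a • v))
        = (t : Matrix ι ι F) *ᵥ (((t⁻¹ * u * t : GL ι F) : Matrix ι ι F) *ᵥ (a • v)) := by
          simp only [Units.val_mul, ← Matrix.mulVec_mulVec, H98.gl_mulVec_inv]
      _ = _ := by rw [this]
  -- `U` is a maximal `p`-subgroup of each two point stabiliser
  have hmax : ∀ a : E, a ∉ Set.range (algebraMap F E) →
      ∀ T : Subgroup (GL ι F), IsPGroup p T → T ≤ Mvl a → U ≤ T → T = U := by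
    intro a ha T hTp hTM hUT
    by_contra hne
    haveI := hTp.isNilpotent
    have hlt : U.subgroupOf T < ⊤ := lt_top_iff_ne_top.2 fun htop =>
      hne (le_antisymm (fun x hx => Subgroup.mem_subgroupOf.1 (htop ▸ Subgroup.mem_top (⟨x, hx⟩ : T))) hUT)
    obtain ⟨t, ht, htU⟩ := SetLike.exists_of_lt (Group.normalizerCondition_of_isNilpotent _ hlt)
    have htn : ∀ u ∈ U, (t : GL ι F)⁻¹ * u * t ∈ U := fun u hu =>
      (Subgroup.mem_normalizer_iff''.1 ht ⟨u, hUT hu⟩).1 hu
    obtain ⟨A, hA⟩ := H.line_aut hv hL (hTM t.2).1 ((hTM t.2).2 v (Or.inl rfl)) (hstab _ htn)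
    have hAa : A a = a := smul_left_injective E hv (by
      show A a • v = a • v
      rw [← hA]; exact (hTM t.2).2 _ (Or.inr rfl))
    have hA1 : ∀ x : E, A x = x := by
      rcases (Subalgebra.isSimpleOrder_of_finrank_prime F E H.prime).eq_bot_or_eq_top
        (AlgHom.equalizer A (AlgHom.id F E)) with h0 | h0
      · exact absurd (Algebra.mem_bot.1 (h0 ▸ (hAa : a ∈ AlgHom.equalizer A (AlgHom.id F E)) :
          a ∈ (⊥ : Subalgebra F E))) ha
      · exact fun x => (h0 ▸ Algebra.mem_top : x ∈ AlgHom.equalizer A (AlgHom.id F E))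
    have htG : (t : GL ι F) ∈ G0 := ⟨(hTM t.2).1, by rintro _ ⟨x, rfl⟩; rw [hA, hA1]⟩
    have := hUmax (U ⊔ Subgroup.zpowers (t : GL ι F))
      (hTp.to_le (sup_le hUT ((Subgroup.zpowers_le).2 t.2)))
      (sup_le hUG ((Subgroup.zpowers_le).2 htG)) le_sup_left
    exact htU (Subgroup.mem_subgroupOf.2 (this ▸ Subgroup.mem_sup_right (Subgroup.mem_zpowers _)))
  set N := Mvl c'
  have hUN : U ≤ N := hUG.trans (hG0le c')
  let P1 : Sylow p N :=
    { toSubgroup := U.subgroupOf N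
      isPGroup' := hUp.of_equiv (Subgroup.subgroupOfEquivOfLe hUN).symm
      is_maximal' := fun {Q} hQ hle => by
        have := hmax c' hc' (Q.map N.subtype) (hQ.map _) (Subgroup.map_subtype_le _)
          (fun x hx => ⟨⟨x, hUN hx⟩, hle hx, rfl⟩)
        rw [← this]
        exact (Subgroup.comap_map_eq_self_of_injective N.subtype_injective Q).symm }
  set U' := U.map (MulAut.conj h).toMonoidHom with hU'
  have hU'N : U' ≤ N := by
    rintro _ ⟨u, hu, rfl⟩
    refine ⟨M.mul_mem (M.mul_mem hh (hUG hu).1) (M.inv_mem hh), ?_⟩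
    have hconj : ∀ x : ι → F, (u : Matrix ι ι F) *ᵥ x = x →
        ((h * u * h⁻¹ : GL ι F) : Matrix ι ι F) *ᵥ ((h : Matrix ι ι F) *ᵥ x) =
          (h : Matrix ι ι F) *ᵥ x := fun x hx => by
      simp only [Units.val_mul, ← Matrix.mulVec_mulVec, H98.gl_inv_mulVec, hx]
    intro x hx
    rw [MulEquiv.coe_toMonoidHom, MulAut.conj_apply]
    rcases hx with rfl | rfl
    · conv_lhs => rw [← h1]
      rw [hconj x ((hUG hu).2 x ⟨1, one_smul E x⟩), h1]
    · rw [← h2]
      exact hconj _ ((hUG hu).2 _ ⟨c, rfl⟩)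
  obtain ⟨P2, hP2⟩ := ((hUp.map (MulAut.conj h).toMonoidHom).of_equiv
    (Subgroup.subgroupOfEquivOfLe hU'N).symm).exists_le_sylow
  have hP2eq : U'.subgroupOf N = (P2 : Subgroup N) := by
    refine Subgroup.eq_of_le_of_card_ge hP2 (le_of_eq ?_)
    rw [P2.card_eq_multiplicity, ← P1.card_eq_multiplicity]
    show Nat.card (U.subgroupOf N) = _
    rw [Nat.card_congr (Subgroup.subgroupOfEquivOfLe hUN).toEquiv,
      Nat.card_congr (Subgroup.subgroupOfEquivOfLe hU'N).toEquiv, hU',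
      ← Nat.card_congr (U.equivMapOfInjective (MulAut.conj h).toMonoidHom (MulAut.conj h).injective).toEquiv]
  obtain ⟨g, hg⟩ := MulAction.exists_smul_eq N P2 P1
  set t : GL ι F := (g : GL ι F) * h with ht
  have htn : ∀ u ∈ U, t⁻¹ * u * t ∈ U := by
    intro u hu
    have hmem : (⟨u, hUN hu⟩ : N) ∈ ((g • P2 : Sylow p N) : Subgroup N) := by rw [hg]; exact hu
    rw [Sylow.coe_subgroup_smul] at hmem
    have hmem2 : MulAut.conj g⁻¹ • (⟨u, hUN hu⟩ : N) ∈ (P2 : Subgroup N) := by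
      have := Subgroup.mem_pointwise_smul_iff_inv_smul_mem.1 hmem
      rwa [← map_inv] at this
    rw [← hP2eq, Subgroup.mem_subgroupOf] at hmem2
    obtain ⟨w, hw, hwe⟩ := hmem2
    have hwe' : h * w * h⁻¹ = (g : GL ι F)⁻¹ * u * (g : GL ι F) := by simpa using hwe
    have : t⁻¹ * u * t = w := by
      rw [ht, mul_inv_rev]
      calc h⁻¹ * (g : GL ι F)⁻¹ * u * ((g : GL ι F) * h)
          = h⁻¹ * ((g : GL ι F)⁻¹ * u * (g : GL ι F)) * h := by group
        _ = w := by rw [← hwe']; group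
    rwa [this]
  have htv : (t : Matrix ι ι F) *ᵥ v = v := by
    rw [ht, Units.val_mul, ← Matrix.mulVec_mulVec, h1]; exact g.2.2 v (Or.inl rfl)
  obtain ⟨A, hA⟩ := H.line_aut hv hL (mul_mem g.2.1 hh) htv (hstab t htn)
  refine ⟨A, smul_left_injective E hv ?_⟩
  show A c • v = c' • v
  rw [← hA, Units.val_mul, ← Matrix.mulVec_mulVec, h2]
  exact g.2.2 _ (Or.inr rfl)

/-- The stabiliser of `v` moves any vector off the line of `v` into the line of a given one. -/
theorem Ctx.exists_rep (H : Ctx E M) {v x0 x : ι → F} (hx0 : x0 ∉ Submodule.span E {v})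
    (hx : x ∉ Submodule.span E {v}) :
    ∃ g ∈ M, (g : Matrix ι ι F) *ᵥ v = v ∧ ∃ b : Eˣ, (g : Matrix ι ι F) *ᵥ x = (b : E) • x0 := by
  by_cases hxx : x ∈ Submodule.span E {v} ⊔ Submodule.span E {x0}
  · obtain ⟨_, hs, _, ht, hsum⟩ := Submodule.mem_sup.1 hxx
    obtain ⟨a, rfl⟩ := Submodule.mem_span_singleton.1 hs
    obtain ⟨b, rfl⟩ := Submodule.mem_span_singleton.1 ht
    have hb : b ≠ 0 := fun e => hx (by
      rw [← hsum, e, zero_smul, add_zero]
      exact Submodule.smul_mem _ _ (Submodule.mem_span_singleton_self v))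
    have hbx : b • x0 ∉ Submodule.span E {v} := fun h => hx0 (by
      rw [← inv_smul_smul₀ hb x0]; exact Submodule.smul_mem _ _ h)
    obtain ⟨g, hg, hgv, hgx⟩ := H.exists_translate hbx a
    refine ⟨g⁻¹, inv_mem hg, ?_, Units.mk0 b hb, ?_⟩
    · conv_lhs => rw [← one_smul E v, ← hgv 1, H98.gl_inv_mulVec, one_smul]
    · rw [← hsum, add_comm (a • v), ← hgx, H98.gl_inv_mulVec, Units.val_mk0]
  · obtain ⟨g, hg, hgv, hgx⟩ := H.exists_move_off hx0 hxx
    refine ⟨g⁻¹, inv_mem hg, ?_, 1, ?_⟩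
    · conv_lhs => rw [← one_smul E v, ← hgv 1, H98.gl_inv_mulVec, one_smul]
    · rw [← hgx, H98.gl_inv_mulVec, Units.val_one, one_smul]

omit [Fintype E] in
theorem card_arith {q r : ℕ} (hq : 2 ≤ q) (hr : 2 ≤ r) (h : q ^ r - q ≤ r * (q - 1)) : q = 2 ∧ r = 2 := by
  obtain ⟨s, rfl⟩ : ∃ s, r = s + 2 := ⟨r - 2, by omega⟩
  obtain ⟨a, rfl⟩ : ∃ a, q = a + 2 := ⟨q - 2, by omega⟩
  have hb : ∀ k : ℕ, 1 + k * (a + 1) ≤ (a + 2) ^ k := by
    intro k
    induction k with
    | zero => simp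
    | succ k ih => rw [pow_succ]; nlinarith [Nat.mul_le_mul_right (a + 2) ih, Nat.zero_le (k * (a + 1) * (a + 1))]
  have h1 := hb (s + 1)
  have h3 : (a + 2) ^ (s + 2) = (a + 2) ^ (s + 1) * (a + 2) := pow_succ _ _
  have h4 : (a + 2) ^ (s + 2) ≤ (s + 2) * (a + 1) + (a + 2) := by
    rw [show a + 2 - 1 = a + 1 by omega] at h; omega
  have h5 : ((s + 1) * (a + 1)) * (a + 2) ≤ (s + 2) * (a + 1) := by nlinarith
  have h6 : (s + 1) * (a + 2) ≤ s + 2 := by
    refine Nat.le_of_mul_le_mul_left ?_ (Nat.succ_pos a)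
    calc (a + 1) * ((s + 1) * (a + 2)) = (s + 1) * (a + 1) * (a + 2) := by ring
      _ ≤ (s + 2) * (a + 1) := h5
      _ = (a + 1) * (s + 2) := by ring
  constructor <;> nlinarith

/-- An overgroup of the `E`-linear maps of determinant one with an element that is not semilinear contains `SL`,
except possibly for the quadratic extension of the field of two elements. -/
theorem Ctx.sl_le (H : Ctx E M) (hex : ¬ (Fintype.card F = 2 ∧ Module.finrank F E = 2)) :
    Cfsg.Geo.specialLinear ι F ≤ M := by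
  classical
  obtain ⟨v, hv⟩ := H.indep 0
  have hv0 : v ≠ 0 := fun h => hv (by rw [h]; exact zero_mem _)
  by_cases hne : ∃ a ∈ preserver H hv0, ∃ x : E, a x ≠ a 1 * x
  · exact H.sl_le_of_preserver hv0 hne
  push Not at hne
  obtain ⟨x0, hx0⟩ := H.indep v
  set q := Fintype.card F with hq
  set r := Module.finrank F E with hr
  have hq2 : 2 ≤ q := Fintype.one_lt_card
  have hrep : ∀ c : E, c ∉ Set.range (algebraMap F E) → ∃ b : Eˣ, ∃ g ∈ M,
      (g : Matrix ι ι F) *ᵥ v = v ∧ (g : Matrix ι ι F) *ᵥ (c • v) = (b : E) • x0 := by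
    intro c hc
    obtain ⟨h, hh, h1, h2⟩ := H.exists_out hc hv0
    obtain ⟨g, hg, hgv, b, hb⟩ := H.exists_rep hx0 h2
    exact ⟨b, g * h, mul_mem hg hh, by rw [Units.val_mul, ← Matrix.mulVec_mulVec, h1, hgv],
      by rw [Units.val_mul, ← Matrix.mulVec_mulVec, hb]⟩
  choose! b hb using hrep
  let π : Eˣ →* Eˣ := powMonoidHom (q - 1)
  let δ : E → Eˣ ⧸ π.range := fun c => QuotientGroup.mk (b c)
  have hquot : Nat.card (Eˣ ⧸ π.range) ≤ q - 1 := by
    have h1 := Subgroup.card_eq_card_quotient_mul_card_subgroup π.range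
    have h2 := Subgroup.card_eq_card_quotient_mul_card_subgroup π.ker
    rw [Nat.card_congr (QuotientGroup.quotientKerEquivRange π).toEquiv] at h2
    have h3 : Nat.card (Eˣ ⧸ π.range) = Nat.card π.ker := by
      refine Nat.eq_of_mul_eq_mul_right (Nat.card_pos (α := π.range)) ?_
      rw [← h1, h2, mul_comm]
    rw [h3, Nat.card_eq_fintype_card, ← Finset.card_univ]
    refine le_trans (le_of_eq (Finset.card_image_of_injective _
      (f := fun u : π.ker => ((u : Eˣ) : E)) (Units.val_injective.comp Subtype.val_injective)).symm) ?_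
    refine le_trans (Finset.card_le_card (t := (Polynomial.nthRoots (q - 1) (1 : E)).toFinset) ?_)
      ((Multiset.toFinset_card_le _).trans (Polynomial.card_nthRoots _ _))
    intro z hz
    obtain ⟨u, -, rfl⟩ := Finset.mem_image.1 hz
    rw [Multiset.mem_toFinset, Polynomial.mem_nthRoots (by omega), ← Units.val_pow_eq_pow_val,
      show (u : Eˣ) ^ (q - 1) = 1 from u.2, Units.val_one]
  let D : Finset E := Finset.univ \ Finset.univ.image (algebraMap F E)
  have hD : ∀ c ∈ D, c ∉ Set.range (algebraMap F E) := fun c hc ⟨t, ht⟩ =>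
    (Finset.mem_sdiff.1 hc).2 (Finset.mem_image.2 ⟨t, Finset.mem_univ t, ht⟩)
  have hDcard : D.card = q ^ r - q := by
    rw [Finset.card_sdiff_of_subset (Finset.subset_univ _), Finset.card_univ,
      Finset.card_image_of_injective _ (algebraMap F E).injective, Finset.card_univ, ← hq,
      ← Nat.card_eq_fintype_card, card_E F E]
  letI : Fintype (Eˣ ⧸ π.range) := Fintype.ofFinite _
  letI : Fintype (E →ₐ[F] E) := Fintype.ofFinite _
  have hfib : ∀ y ∈ D.image δ, (D.filter fun c => δ c = y).card ≤ r := by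
    intro y hy
    obtain ⟨c, hc, rfl⟩ := Finset.mem_image.1 hy
    refine le_trans (Finset.card_le_card (t := Finset.univ.image fun A : E →ₐ[F] E => A c) ?_) ?_
    · intro c' hc'
      obtain ⟨hc'D, hδ⟩ := Finset.mem_filter.1 hc'
      obtain ⟨u, hu⟩ := (QuotientGroup.eq.1 hδ.symm : (b c)⁻¹ * b c' ∈ π.range)
      obtain ⟨g, hg, hgv, hgc⟩ := hb c (hD c hc)
      obtain ⟨g', hg', hgv', hgc'⟩ := hb c' (hD c' hc'D)
      obtain ⟨s, hs, hsv, hsx⟩ := H.exists_scale hx0 u
      have hsv' : (s : Matrix ι ι F) *ᵥ v = v := by simpa using hsv 1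
      have hbb : ((u ^ (q - 1) : Eˣ) : E) * (b c : E) = (b c' : E) := by
        rw [← Units.val_mul, show u ^ (q - 1) = (b c)⁻¹ * b c' from hu]
        congr 1
        rw [mul_comm, mul_inv_cancel_left]
      have hginv : ((g'⁻¹ : GL ι F) : Matrix ι ι F) *ᵥ v = v := by
        conv_lhs => rw [← hgv', H98.gl_inv_mulVec]
      obtain ⟨A, hA⟩ := H.conj_aut hv0 hne (hD c hc) (hD c' hc'D)
        (mul_mem (inv_mem hg') (mul_mem hs hg))
        (by simp only [Units.val_mul, ← Matrix.mulVec_mulVec, hgv, hsv', hginv])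
        (by rw [Units.val_mul, Units.val_mul, ← Matrix.mulVec_mulVec, ← Matrix.mulVec_mulVec, hgc, hsx, hbb,
              ← hgc', H98.gl_inv_mulVec])
      exact Finset.mem_image.2 ⟨A, Finset.mem_univ _, hA⟩
    · refine Finset.card_image_le.trans ?_
      rw [Finset.card_univ, ← Nat.card_eq_fintype_card]
      exact card_algHom_le_finrank F E E
  have hcount := Finset.card_le_mul_card_image D r hfib
  have himg : (D.image δ).card ≤ q - 1 := (Finset.card_le_univ _).trans (by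
    rw [← Nat.card_eq_fintype_card]; exact hquot)
  rw [hDcard] at hcount
  exact absurd (card_arith hq2 H.prime.two_le (hcount.trans (Nat.mul_le_mul_left _ himg))) hex

end Cfsg.Agent.H58.ExtField
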