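import Cfsg.Agent.H98.MaximalSL

/-!
# Overgroups of the semilinear group: elements

`V = ι → F` carries the structure of a vector space over a finite extension `E` of `F`.  This file has the
`E`-linear root elements and partial scalings, and the orbits on pairs of vectors they give in any subgroup of
`GL(ι, F)` containing the `E`-linear maps of determinant one.
-/

set_option autoImplicit false
set_option linter.unusedSectionVars false
set_option linter.unusedVariables false

namespace Cfsg.Agent.H58.ExtField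

open scoped Matrix

variable {ι : Type} [Fintype ι] [DecidableEq ι] {F : Type*} [Field F]

/-- A finite field element whose power of `p` is one, `p` the characteristic, is one. -/
theorem eq_one_of_pow_char {p : ℕ} [Fact p.Prime] [CharP F p] {x : F} (h : x ^ p = 1) : x = 1 :=
  frobenius_inj F p (by simpa [frobenius_def] using h)

/-- `1 + β` for a square-zero map `β`. -/
noncomputable def uni (β : (ι → F) →ₗ[F] (ι → F)) (h : β ∘ₗ β = 0) : GL ι F where
  val := 1 + LinearMap.toMatrix' β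
  inv := 1 - LinearMap.toMatrix' β
  val_inv := by
    have e : LinearMap.toMatrix' β * LinearMap.toMatrix' β = 0 := by
      rw [← LinearMap.toMatrix'_comp, h, map_zero]
    linear_combination (norm := noncomm_ring) -e
  inv_val := by
    have e : LinearMap.toMatrix' β * LinearMap.toMatrix' β = 0 := by
      rw [← LinearMap.toMatrix'_comp, h, map_zero]
    linear_combination (norm := noncomm_ring) -e

theorem uni_mulVec (β : (ι → F) →ₗ[F] (ι → F)) (h : β ∘ₗ β = 0) (x : ι → F) :
    (uni β h : Matrix ι ι F) *ᵥ x = x + β x := by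
  show (1 + LinearMap.toMatrix' β) *ᵥ x = _
  rw [Matrix.add_mulVec, Matrix.one_mulVec, LinearMap.toMatrix'_mulVec]

theorem uni_pow (β : (ι → F) →ₗ[F] (ι → F)) (h : β ∘ₗ β = 0) (k : ℕ) (x : ι → F) :
    ((uni β h ^ k : GL ι F) : Matrix ι ι F) *ᵥ x = x + k • β x := by
  induction k generalizing x with
  | zero => simp
  | succ k ih =>
    rw [pow_succ, Units.val_mul, ← Matrix.mulVec_mulVec, uni_mulVec, ih, map_add,
      show β (β x) = 0 from LinearMap.congr_fun h x, add_zero, succ_nsmul']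
    abel

theorem uni_pow_char {p : ℕ} [CharP F p] (β : (ι → F) →ₗ[F] (ι → F)) (h : β ∘ₗ β = 0) :
    uni β h ^ p = 1 :=
  H98.gl_ext fun x => by
    rw [uni_pow, Units.val_one, Matrix.one_mulVec, ← Nat.cast_smul_eq_nsmul F, CharP.cast_eq_zero,
      zero_smul, add_zero]

theorem uni_mem_sl [Finite F] (β : (ι → F) →ₗ[F] (ι → F)) (h : β ∘ₗ β = 0) :
    uni β h ∈ Cfsg.Geo.specialLinear ι F := by
  obtain ⟨p, hc⟩ := CharP.exists F
  have : Fact p.Prime := ⟨CharP.char_is_prime F p⟩
  rw [Cfsg.Geo.specialLinear, MonoidHom.mem_ker]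
  have h1 : (Matrix.GeneralLinearGroup.det (uni β h)) ^ p = 1 := by
    rw [← map_pow, uni_pow_char, map_one]
  refine Units.ext (eq_one_of_pow_char (p := p) ?_)
  rw [← Units.val_pow_eq_pow_val, h1, Units.val_one]

section Field

variable {E : Type*} [Field E] [Algebra F E] [Module E (ι → F)] [IsScalarTower F E (ι → F)]

/-- `b` kills the `E`-line of `u`. -/
def Kills (b : (ι → F) →ₗ[F] E) (u : ι → F) : Prop := ∀ c : E, b (c • u) = 0

/-- `x ↦ b x • u` as an `F`-linear map. -/
noncomputable def disp (u : ι → F) (b : (ι → F) →ₗ[F] E) : (ι → F) →ₗ[F] (ι → F) :=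
  ((LinearMap.toSpanSingleton E (ι → F) u).restrictScalars F) ∘ₗ b

theorem disp_apply (u : ι → F) (b : (ι → F) →ₗ[F] E) (x : ι → F) : disp u b x = b x • u := rfl

theorem disp_sq {u : ι → F} {b : (ι → F) →ₗ[F] E} (h : Kills b u) : disp u b ∘ₗ disp u b = 0 :=
  LinearMap.ext fun x => by
    rw [LinearMap.comp_apply, disp_apply, disp_apply, h, zero_smul, LinearMap.zero_apply]

open scoped Classical in
/-- The element `x ↦ x + b x • u`, for `b` killing the line of `u`. -/
noncomputable def el (u : ι → F) (b : (ι → F) →ₗ[F] E) : GL ι F :=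
  if h : Kills b u then uni (disp u b) (disp_sq h) else 1

theorem el_mulVec {u : ι → F} {b : (ι → F) →ₗ[F] E} (h : Kills b u) (x : ι → F) :
    (el u b : Matrix ι ι F) *ᵥ x = x + b x • u := by
  rw [el, dif_pos h, uni_mulVec, disp_apply]

theorem el_mem_sl [Finite F] (u : ι → F) (b : (ι → F) →ₗ[F] E) :
    el u b ∈ Cfsg.Geo.specialLinear ι F := by
  rw [el]
  split_ifs with h
  · exact uni_mem_sl _ _
  · exact one_mem _

theorem kills_add {u : ι → F} {a b : (ι → F) →ₗ[F] E} (ha : Kills a u) (hb : Kills b u) :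
    Kills (a + b) u := fun c => by rw [LinearMap.add_apply, ha, hb, add_zero]

theorem kills_zero (u : ι → F) : Kills (0 : (ι → F) →ₗ[F] E) u := fun _ => rfl

theorem el_zero (u : ι → F) : el u (0 : (ι → F) →ₗ[F] E) = 1 :=
  H98.gl_ext fun x => by simp [el_mulVec (kills_zero u)]

theorem el_mul {u : ι → F} {a b : (ι → F) →ₗ[F] E} (ha : Kills a u) (hb : Kills b u) :
    el u a * el u b = el u (a + b) :=
  H98.gl_ext fun x => by
    rw [Units.val_mul, ← Matrix.mulVec_mulVec, el_mulVec ha, el_mulVec hb, el_mulVec (kills_add ha hb),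
      map_add, ha, add_zero, LinearMap.add_apply, add_smul]
    abel

theorem el_neg {u : ι → F} {a : (ι → F) →ₗ[F] E} (ha : Kills a u) : el u (-a) = (el u a)⁻¹ := by
  refine eq_inv_of_mul_eq_one_right ?_
  rw [el_mul ha (fun c => by rw [LinearMap.neg_apply, ha, neg_zero]), add_neg_cancel, el_zero]

/-- The `E`-linear elements. -/
def ELin (E : Type*) [Field E] [Module E (ι → F)] (g : GL ι F) : Prop :=
  ∀ (c : E) (x : ι → F), (g : Matrix ι ι F) *ᵥ (c • x) = c • ((g : Matrix ι ι F) *ᵥ x)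

/-- The `E`-semilinear elements. -/
def Semi (E : Type*) [Field E] [Module E (ι → F)] (g : GL ι F) : Prop :=
  ∀ c : E, ∃ d : E, ∀ x : ι → F, (g : Matrix ι ι F) *ᵥ (c • x) = d • ((g : Matrix ι ι F) *ᵥ x)

theorem kills_lin {u : ι → F} {φ : (ι → F) →ₗ[E] E} (h : φ u = 0) :
    Kills (φ.restrictScalars F) u := fun c => by
  rw [LinearMap.restrictScalars_apply, map_smul, h, smul_zero]

theorem el_elin {u : ι → F} {φ : (ι → F) →ₗ[E] E} (h : φ u = 0) :
    ELin E (el u (φ.restrictScalars F)) := fun c x => by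
  rw [el_mulVec (kills_lin h), el_mulVec (kills_lin h), LinearMap.restrictScalars_apply,
    LinearMap.restrictScalars_apply, map_smul, smul_eq_mul, smul_add, mul_smul]

/-- An `E`-functional that is one at a vector outside a subspace and vanishes on it. -/
theorem exists_efunctional {S : Submodule E (ι → F)} {x : ι → F} (hx : x ∉ S) :
    ∃ φ : (ι → F) →ₗ[E] E, φ x = 1 ∧ ∀ y ∈ S, φ y = 0 := by
  obtain ⟨φ, h1, h2⟩ := Submodule.exists_dual_map_eq_bot_of_notMem hx inferInstance
  refine ⟨(φ x)⁻¹ • φ, by simp [h1], fun y hy => ?_⟩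
  have : φ y = 0 := by
    rw [← Submodule.mem_bot (R := E), ← h2]
    exact Submodule.mem_map_of_mem hy
  simp [this]

/-- The map `x ↦ x + (c - 1) ψ x • u`, as an `F`-linear map. -/
noncomputable def scalMap (u : ι → F) (ψ : (ι → F) →ₗ[E] E) (c : E) : (ι → F) →ₗ[F] (ι → F) :=
  LinearMap.id + disp u ((c - 1) • (ψ.restrictScalars F))

theorem scalMap_apply (u : ι → F) (ψ : (ι → F) →ₗ[E] E) (c : E) (x : ι → F) :
    scalMap u ψ c x = x + ((c - 1) * ψ x) • u := rfl

theorem scalMap_comp {u : ι → F} {ψ : (ι → F) →ₗ[E] E} (h : ψ u = 1) (c d : E) :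
    scalMap u ψ c ∘ₗ scalMap u ψ d = scalMap u ψ (c * d) :=
  LinearMap.ext fun x => by
    rw [LinearMap.comp_apply, scalMap_apply, scalMap_apply, scalMap_apply, map_add, map_smul, h,
      smul_eq_mul, mul_one, add_assoc, ← add_smul]
    congr 2
    ring

theorem scalMap_one (u : ι → F) (ψ : (ι → F) →ₗ[E] E) : scalMap u ψ (1 : E) = LinearMap.id :=
  LinearMap.ext fun x => by rw [scalMap_apply, sub_self, zero_mul, zero_smul, add_zero, LinearMap.id_apply]

/-- The scalings of the line of `u` along the kernel of `ψ`. -/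
noncomputable def scal (u : ι → F) (ψ : (ι → F) →ₗ[E] E) (h : ψ u = 1) : Eˣ →* GL ι F where
  toFun c :=
    { val := LinearMap.toMatrix' (scalMap u ψ (c : E))
      inv := LinearMap.toMatrix' (scalMap u ψ ((c⁻¹ : Eˣ) : E))
      val_inv := by
        rw [← LinearMap.toMatrix'_comp, scalMap_comp h, Units.mul_inv, scalMap_one, LinearMap.toMatrix'_id]
      inv_val := by
        rw [← LinearMap.toMatrix'_comp, scalMap_comp h, Units.inv_mul, scalMap_one, LinearMap.toMatrix'_id] }
  map_one' := Units.ext (by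
    show LinearMap.toMatrix' (scalMap u ψ ((1 : Eˣ) : E)) = _
    rw [Units.val_one, scalMap_one, LinearMap.toMatrix'_id]; rfl)
  map_mul' c d := Units.ext (by
    show LinearMap.toMatrix' (scalMap u ψ ((c * d : Eˣ) : E)) = _
    rw [Units.val_mul, ← scalMap_comp h, LinearMap.toMatrix'_comp]; rfl)

theorem scal_mulVec {u : ι → F} {ψ : (ι → F) →ₗ[E] E} (h : ψ u = 1) (c : Eˣ) (x : ι → F) :
    (scal u ψ h c : Matrix ι ι F) *ᵥ x = x + (((c : E) - 1) * ψ x) • u := by
  show LinearMap.toMatrix' (scalMap u ψ (c : E)) *ᵥ x = _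
  rw [LinearMap.toMatrix'_mulVec, scalMap_apply]

theorem scal_elin {u : ι → F} {ψ : (ι → F) →ₗ[E] E} (h : ψ u = 1) (c : Eˣ) :
    ELin E (scal u ψ h c) := fun d x => by
  rw [scal_mulVec, scal_mulVec, map_smul, smul_eq_mul, smul_add, smul_smul]
  congr 2
  ring

theorem scal_pow_mem_sl [Fintype F] {u : ι → F} {ψ : (ι → F) →ₗ[E] E} (h : ψ u = 1) (c : Eˣ) :
    scal u ψ h (c ^ (Fintype.card F - 1)) ∈ Cfsg.Geo.specialLinear ι F := by
  rw [Cfsg.Geo.specialLinear, MonoidHom.mem_ker, map_pow, map_pow]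
  refine Units.ext ?_
  rw [Units.val_pow_eq_pow_val, FiniteField.pow_card_sub_one_eq_one _ (Units.ne_zero _), Units.val_one]

variable (E) in
/-- The hypotheses: `E` has prime degree, `V` is not a line over `E`, and `M` contains the `E`-linear maps of
determinant one and an element that is not `E`-semilinear. -/
structure Ctx (M : Subgroup (GL ι F)) : Prop where
  prime : (Module.finrank F E).Prime
  indep : ∀ v : ι → F, ∃ w : ι → F, w ∉ Submodule.span E {v}
  lin : ∀ g ∈ Cfsg.Geo.specialLinear ι F, ELin E g → g ∈ M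
  notSemi : ∃ h ∈ M, ¬ Semi E h

variable {M : Subgroup (GL ι F)}

theorem Ctx.el_mem [Finite F] (H : Ctx E M) {u : ι → F} {φ : (ι → F) →ₗ[E] E} (h : φ u = 0) :
    el u (φ.restrictScalars F) ∈ M :=
  H.lin _ (el_mem_sl _ _) (el_elin h)

theorem Ctx.scal_mem [Fintype F] (H : Ctx E M) {u : ι → F} {ψ : (ι → F) →ₗ[E] E} (h : ψ u = 1)
    (c : Eˣ) : scal u ψ h (c ^ (Fintype.card F - 1)) ∈ M :=
  H.lin _ (scal_pow_mem_sl h c) (scal_elin h _)

/-- Two vectors independent modulo a subspace fixed pointwise. -/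
theorem Ctx.exists_move_indep [Finite F] (H : Ctx E M) {S : Submodule E (ι → F)} {x y : ι → F}
    (hxy : x ∉ S ⊔ Submodule.span E {y - x}) :
    ∃ g ∈ M, ELin E g ∧ (∀ s ∈ S, (g : Matrix ι ι F) *ᵥ s = s) ∧ (g : Matrix ι ι F) *ᵥ x = y := by
  obtain ⟨φ, h1, h2⟩ := exists_efunctional hxy
  have hu : φ (y - x) = 0 := h2 _ (Submodule.mem_sup_right (Submodule.mem_span_singleton_self _))
  refine ⟨el (y - x) (φ.restrictScalars F), H.el_mem hu, el_elin hu, fun s hs => ?_, ?_⟩
  · rw [el_mulVec (kills_lin hu), LinearMap.restrictScalars_apply, h2 s (Submodule.mem_sup_left hs),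
      zero_smul, add_zero]
  · rw [el_mulVec (kills_lin hu), LinearMap.restrictScalars_apply, h1, one_smul, add_sub_cancel]

/-- Membership in the span of a line over a subspace, swapped. -/
theorem not_mem_sup_sub {S : Submodule E (ι → F)} {x y : ι → F} (hx : x ∉ S)
    (hy : y ∉ S ⊔ Submodule.span E {x}) : x ∉ S ⊔ Submodule.span E {y - x} := by
  intro h
  obtain ⟨s, hs, t, ht, he⟩ := Submodule.mem_sup.1 h
  obtain ⟨c, rfl⟩ := Submodule.mem_span_singleton.1 ht
  rcases eq_or_ne c 0 with rfl | hc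
  · rw [zero_smul, add_zero] at he
    exact hx (he ▸ hs)
  · refine hy (Submodule.mem_sup.2 ⟨-(c⁻¹ • s), S.neg_mem (S.smul_mem _ hs), (c⁻¹ + 1) • x,
      Submodule.smul_mem _ _ (Submodule.mem_span_singleton_self x), ?_⟩)
    have e : c⁻¹ • x = c⁻¹ • s + (y - x) := by
      conv_lhs => rw [← he]
      rw [smul_add, inv_smul_smul₀ hc]
    rw [add_smul, one_smul, e]
    abel

/-- `M` is transitive on nonzero vectors, by `E`-linear maps. -/
theorem Ctx.exists_trans [Finite F] (H : Ctx E M) {x y : ι → F} (hx : x ≠ 0) (hy : y ≠ 0) :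
    ∃ g ∈ M, ELin E g ∧ (g : Matrix ι ι F) *ᵥ x = y := by
  have key : ∀ {a b : ι → F}, a ≠ 0 → b ∉ Submodule.span E {a} →
      ∃ g ∈ M, ELin E g ∧ (g : Matrix ι ι F) *ᵥ a = b := by
    intro a b ha hb
    obtain ⟨g, h1, h2, -, h3⟩ := H.exists_move_indep (S := ⊥)
      (not_mem_sup_sub (S := ⊥) (by simpa using ha) (by simpa using hb))
    exact ⟨g, h1, h2, h3⟩
  by_cases hxy : y ∈ Submodule.span E {x}
  · obtain ⟨z, hz⟩ := H.indep x
    have hz0 : z ≠ 0 := fun h => hz (h ▸ zero_mem _)
    have hyz : y ∉ Submodule.span E {z} := by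
      intro h
      obtain ⟨c, hc⟩ := Submodule.mem_span_singleton.1 h
      rcases eq_or_ne c 0 with rfl | hc0
      · exact hy (by rw [← hc, zero_smul])
      · refine hz ?_
        rw [← inv_smul_smul₀ hc0 z, hc]
        exact Submodule.smul_mem _ _ hxy
    obtain ⟨g, hg, hgl, hgx⟩ := key hx hz
    obtain ⟨g', hg', hgl', hgz⟩ := key hz0 hyz
    refine ⟨g' * g, mul_mem hg' hg, fun c v => ?_, ?_⟩
    · rw [Units.val_mul, ← Matrix.mulVec_mulVec, ← Matrix.mulVec_mulVec, hgl, hgl']
    · rw [Units.val_mul, ← Matrix.mulVec_mulVec, hgx, hgz]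
  · exact key hx hxy

/-- The stabiliser of `v` in `M` moves a vector off `E v` to any vector independent of it modulo `E v`. -/
theorem Ctx.exists_move_off [Finite F] (H : Ctx E M) {v x y : ι → F}
    (hx : x ∉ Submodule.span E {v}) (hy : y ∉ Submodule.span E {v} ⊔ Submodule.span E {x}) :
    ∃ g ∈ M, (∀ c : E, (g : Matrix ι ι F) *ᵥ (c • v) = c • v) ∧ (g : Matrix ι ι F) *ᵥ x = y := by
  obtain ⟨g, h1, -, h2, h3⟩ := H.exists_move_indep (not_mem_sup_sub hx hy)
  exact ⟨g, h1, fun c => h2 _ (Submodule.smul_mem _ _ (Submodule.mem_span_singleton_self v)), h3⟩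

/-- Translations along `E v`. -/
theorem Ctx.exists_translate [Finite F] (H : Ctx E M) {v x : ι → F}
    (hx : x ∉ Submodule.span E {v}) (a : E) :
    ∃ g ∈ M, (∀ c : E, (g : Matrix ι ι F) *ᵥ (c • v) = c • v) ∧
      (g : Matrix ι ι F) *ᵥ x = x + a • v := by
  obtain ⟨φ, h1, h2⟩ := exists_efunctional hx
  have hv : φ v = 0 := h2 v (Submodule.mem_span_singleton_self v)
  have hv' : (a • φ) v = 0 := by rw [LinearMap.smul_apply, hv, smul_zero]
  refine ⟨el v ((a • φ).restrictScalars F), H.el_mem hv', fun c => ?_, ?_⟩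
  · rw [el_mulVec (kills_lin hv'), LinearMap.restrictScalars_apply, map_smul, hv', smul_zero, zero_smul,
      add_zero]
  · rw [el_mulVec (kills_lin hv'), LinearMap.restrictScalars_apply, LinearMap.smul_apply, h1,
      smul_eq_mul, mul_one]

/-- Scalings off `E v` by powers of exponent `q - 1`. -/
theorem Ctx.exists_scale [Fintype F] (H : Ctx E M) {v x : ι → F}
    (hx : x ∉ Submodule.span E {v}) (c : Eˣ) :
    ∃ g ∈ M, (∀ d : E, (g : Matrix ι ι F) *ᵥ (d • v) = d • v) ∧ ∀ b : E,
      (g : Matrix ι ι F) *ᵥ (b • x) = (((c ^ (Fintype.card F - 1) : Eˣ) : E) * b) • x := by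
  obtain ⟨ψ, h1, h2⟩ := exists_efunctional hx
  refine ⟨_, H.scal_mem h1 c, fun d => ?_, fun b => ?_⟩
  · rw [scal_mulVec, map_smul, h2 v (Submodule.mem_span_singleton_self v), smul_zero, mul_zero, zero_smul,
      add_zero]
  · rw [scal_mulVec, map_smul, h1, smul_eq_mul, mul_one, ← add_smul]
    congr 1
    ring

end Field

end Cfsg.Agent.H58.ExtField
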