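import Cfsg.Agent.H58.ExtField.Main

/-!
# Quadratic extensions in dimension at least three

The commutator of two root elements, one conjugated by an element that is not semilinear, is a transvection.
-/

set_option autoImplicit false
set_option linter.unusedSectionVars false
set_option linter.unusedVariables false

namespace Cfsg.Agent.H58.ExtField

open scoped Matrix

variable {ι : Type} [Fintype ι] [DecidableEq ι] {F : Type*} [Field F] [Fintype F]
variable {E : Type*} [Field E] [Fintype E] [Algebra F E] [Module E (ι → F)] [IsScalarTower F E (ι → F)]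
variable {M : Subgroup (GL ι F)}

theorem commutator_square_zero {R : Type*} [Ring R] {A B : R} (hA : A * A = 0) (hB : B * B = 0)
    (hBA : B * A = 0) : (1 + A) * (1 + B) * (1 - A) * (1 - B) = 1 + A * B := by
  have e : (1 + A) * (1 + B) * (1 - A) * (1 - B) - (1 + A * B) =
      -(A * A) + A * A * B - B * A + B * A * B - A * (B * A) + A * (B * A) * B - B * B - A * (B * B) := by
    noncomm_ring
  rw [hA, hB, hBA] at e
  simpa [sub_eq_zero] using e

/-- A quadratic extension in dimension at least three. -/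
theorem Ctx.sl_le_quadratic (H : Ctx E M) (h2 : Module.finrank F E = 2)
    (h3 : ∀ a b : ι → F, ∃ x, x ∉ Submodule.span E {a} ⊔ Submodule.span E {b}) :
    Cfsg.Geo.specialLinear ι F ≤ M := by
  classical
  obtain ⟨l, hl⟩ : ∃ l : E, l ∉ Set.range (algebraMap F E) := by
    by_contra hc
    push Not at hc
    have h1 := Fintype.card_le_of_surjective _ hc
    rw [← Nat.card_eq_fintype_card (α := E), card_E F E, h2] at h1
    nlinarith [Fintype.one_lt_card (α := F)]
  obtain ⟨h, hh, hns⟩ := H.notSemi
  -- a line carried off the lines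
  obtain ⟨w, hw⟩ : ∃ w, (h : Matrix ι ι F) *ᵥ (l • w) ∉ Submodule.span E {(h : Matrix ι ι F) *ᵥ w} := by
    by_contra hc
    push Not at hc
    refine hns (semi_of_one H.prime h hl ?_)
    let T : (ι → F) →ₗ[F] (ι → F) := Matrix.mulVecLin (h : Matrix ι ι F) ∘ₗ
      (DistribSMul.toLinearMap F (ι → F) l) ∘ₗ Matrix.mulVecLin ((h⁻¹ : GL ι F) : Matrix ι ι F)
    obtain ⟨d, hd⟩ := eq_scalar_of_line (E := E) (T := T) H.indep fun y => by
      have := hc (((h⁻¹ : GL ι F) : Matrix ι ι F) *ᵥ y)
      rwa [H98.gl_mulVec_inv] at this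
    refine ⟨d, fun x => ?_⟩
    have := hd ((h : Matrix ι ι F) *ᵥ x)
    simpa [T, H98.gl_inv_mulVec] using this
  set x := (h : Matrix ι ι F) *ᵥ w with hxdef
  set y := (h : Matrix ι ι F) *ᵥ (l • w) with hydef
  set z := ((h⁻¹ : GL ι F) : Matrix ι ι F) *ᵥ (l • x) with hzdef
  obtain ⟨φ, f1, f2⟩ := exists_efunctional hw
  have hφx : φ x = 0 := f2 x (Submodule.mem_span_singleton_self x)
  obtain ⟨u, hu⟩ := h3 w z
  obtain ⟨ψ, g1, g2⟩ := exists_efunctional hu
  have hψw : ψ w = 0 := g2 w (Submodule.mem_sup_left (Submodule.mem_span_singleton_self w))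
  have hψz : ψ z = 0 := g2 z (Submodule.mem_sup_right (Submodule.mem_span_singleton_self z))
  have hli : LinearIndependent F ![(1 : E), l] := by
    rw [LinearIndependent.pair_iff]
    intro s t hst
    rcases eq_or_ne t 0 with rfl | ht
    · rw [zero_smul, add_zero] at hst
      exact ⟨(smul_eq_zero.1 hst).resolve_right one_ne_zero, rfl⟩
    · refine absurd ⟨-(s / t), ?_⟩ hl
      rw [Algebra.algebraMap_eq_smul_one, neg_smul, div_eq_inv_mul, mul_smul,
        eq_neg_of_add_eq_zero_left hst, smul_neg, neg_neg, inv_smul_smul₀ ht]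
  let bas : Module.Basis (Fin 2) F E := basisOfLinearIndependentOfCardEqFinrank hli (by simp [h2])
  let ε : E →ₗ[F] F := bas.coord 1
  have hbas : ∀ c : E, c = bas.coord 0 c • (1 : E) + ε c • l := fun c => by
    conv_lhs => rw [← bas.sum_repr c, Fin.sum_univ_two]
    simp [bas, ε]
  -- the value of `φ ∘ h` on the line of `w`
  have hφh : ∀ c : E, φ ((h : Matrix ι ι F) *ᵥ (c • w)) = algebraMap F E (ε c) := fun c => by
    conv_lhs => rw [hbas c]
    rw [add_smul, smul_assoc, smul_assoc, one_smul, Matrix.mulVec_add, Matrix.mulVec_smul, Matrix.mulVec_smul,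
      ← hxdef, ← hydef, map_add, LinearMap.map_smul_of_tower, LinearMap.map_smul_of_tower, hφx, f1,
      smul_zero, zero_add, Algebra.algebraMap_eq_smul_one]
  -- `φ` is killed by `h`-translations of the line of `x`
  have hψline : ∀ c : E, ψ (((h⁻¹ : GL ι F) : Matrix ι ι F) *ᵥ (c • x)) = 0 := fun c => by
    conv_lhs => rw [hbas c]
    rw [add_smul, smul_assoc, smul_assoc, one_smul, Matrix.mulVec_add, Matrix.mulVec_smul, Matrix.mulVec_smul,
      ← hzdef, hxdef, H98.gl_inv_mulVec, map_add, LinearMap.map_smul_of_tower, LinearMap.map_smul_of_tower,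
      hψw, hψz, smul_zero, smul_zero, add_zero]
  let A : Matrix ι ι F := LinearMap.toMatrix' (disp x (φ.restrictScalars F))
  let B : Matrix ι ι F := (h : Matrix ι ι F) * LinearMap.toMatrix' (disp w (ψ.restrictScalars F)) *
    ((h⁻¹ : GL ι F) : Matrix ι ι F)
  have hAv : ∀ v, A *ᵥ v = φ v • x := fun v => LinearMap.toMatrix'_mulVec _ _
  have hBv : ∀ v, B *ᵥ v = (h : Matrix ι ι F) *ᵥ (ψ (((h⁻¹ : GL ι F) : Matrix ι ι F) *ᵥ v) • w) :=
    fun v => by
      simp only [B, ← Matrix.mulVec_mulVec, LinearMap.toMatrix'_mulVec, disp_apply,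
        LinearMap.restrictScalars_apply]
  have hext : ∀ {P Q : Matrix ι ι F}, (∀ v, P *ᵥ v = Q *ᵥ v) → P = Q := fun he =>
    Matrix.ext_of_mulVec_single fun _ => he _
  have hA2 : A * A = 0 := hext fun v => by
    rw [← Matrix.mulVec_mulVec, hAv, hAv, map_smul, hφx, smul_zero, zero_smul, Matrix.zero_mulVec]
  have hB2 : B * B = 0 := hext fun v => by
    rw [← Matrix.mulVec_mulVec, hBv, hBv, H98.gl_inv_mulVec, map_smul, hψw, smul_zero, zero_smul,
      Matrix.mulVec_zero, Matrix.zero_mulVec]
  have hBA : B * A = 0 := hext fun v => by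
    rw [← Matrix.mulVec_mulVec, hBv, hAv, hψline, zero_smul, Matrix.mulVec_zero, Matrix.zero_mulVec]
  set a := el x (φ.restrictScalars F) with hadef
  set b := h * el w (ψ.restrictScalars F) * h⁻¹ with hbdef
  have ha : a ∈ M := H.el_mem hφx
  have hb : b ∈ M := mul_mem (mul_mem hh (H.el_mem hψw)) (inv_mem hh)
  have hav : (a : Matrix ι ι F) = 1 + A := hext fun v => by
    rw [el_mulVec (kills_lin hφx), Matrix.add_mulVec, Matrix.one_mulVec, hAv]; rfl
  have hbv : (b : Matrix ι ι F) = 1 + B := hext fun v => by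
    rw [Matrix.add_mulVec, Matrix.one_mulVec, hBv, hbdef, Units.val_mul, Units.val_mul, ← Matrix.mulVec_mulVec,
      ← Matrix.mulVec_mulVec, el_mulVec (kills_lin hψw), Matrix.mulVec_add, H98.gl_mulVec_inv]
    rfl
  have hai : ((a⁻¹ : GL ι F) : Matrix ι ι F) = 1 - A := by
    refine Units.inv_eq_of_mul_eq_one_right ?_
    rw [hav]
    have e : (1 + A) * (1 - A) = 1 - A * A := by noncomm_ring
    rw [e, hA2, sub_zero]
  have hbi : ((b⁻¹ : GL ι F) : Matrix ι ι F) = 1 - B := by
    refine Units.inv_eq_of_mul_eq_one_right ?_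
    rw [hbv]
    have e : (1 + B) * (1 - B) = 1 - B * B := by noncomm_ring
    rw [e, hB2, sub_zero]
  set c := a * b * a⁻¹ * b⁻¹ with hcdef
  have hc : c ∈ M := mul_mem (mul_mem (mul_mem ha hb) (inv_mem ha)) (inv_mem hb)
  let f : (ι → F) →ₗ[F] F :=
    ε ∘ₗ ψ.restrictScalars F ∘ₗ Matrix.mulVecLin ((h⁻¹ : GL ι F) : Matrix ι ι F)
  have hcv : ∀ v, (c : Matrix ι ι F) *ᵥ v = v + f v • x := fun v => by
    rw [hcdef, Units.val_mul, Units.val_mul, Units.val_mul, hav, hbv, hai, hbi,
      commutator_square_zero hA2 hB2 hBA, Matrix.add_mulVec, Matrix.one_mulVec, ← Matrix.mulVec_mulVec, hBv,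
      hAv, hφh, algebraMap_smul]
    rfl
  have hfx : f x = 0 := by
    have := hψline 1
    rw [one_smul] at this
    show ε (ψ (((h⁻¹ : GL ι F) : Matrix ι ι F) *ᵥ x)) = 0
    rw [this, map_zero]
  have hfne : f ≠ 0 := fun h0 => by
    have := LinearMap.congr_fun h0 ((h : Matrix ι ι F) *ᵥ (l • u))
    simp only [f, LinearMap.comp_apply, Matrix.mulVecLin_apply, H98.gl_inv_mulVec, LinearMap.zero_apply,
      LinearMap.restrictScalars_apply, map_smul, g1, smul_eq_mul, mul_one] at this
    have hε : ε l = 1 := by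
      have : bas 1 = l := by simp [bas]
      rw [← this]; simp [ε]
    rw [hε] at this
    exact one_ne_zero this
  -- all multiples
  have hf : f ∈ transSpace M x := by
    refine ⟨hfx, fun t ht => ?_⟩
    by_cases ht0 : t = 0
    · subst ht0
      have : H98.transGL ((0 : F) • f) x ht = 1 := H98.gl_ext fun v => by simp
      rw [this]; exact one_mem _
    -- scale `φ`
    set a' := el x (((algebraMap F E t) • φ).restrictScalars F) with ha'def
    have hφx' : ((algebraMap F E t) • φ) x = 0 := by rw [LinearMap.smul_apply, hφx, smul_zero]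
    have ha' : a' ∈ M := H.el_mem hφx'
    have ha'v : (a' : Matrix ι ι F) = 1 + t • A := hext fun v => by
      rw [el_mulVec (kills_lin hφx'), Matrix.add_mulVec, Matrix.one_mulVec, Matrix.smul_mulVec, hAv,
        LinearMap.restrictScalars_apply, LinearMap.smul_apply, smul_eq_mul, mul_smul, algebraMap_smul]
    have hA2' : (t • A) * (t • A) = 0 := by rw [smul_mul_smul_comm, hA2, smul_zero]
    have hBA' : B * (t • A) = 0 := by rw [Matrix.mul_smul, hBA, smul_zero]
    have ha'i : ((a'⁻¹ : GL ι F) : Matrix ι ι F) = 1 - t • A := by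
      refine Units.inv_eq_of_mul_eq_one_right ?_
      rw [ha'v]
      generalize t • A = N at hA2' ⊢
      have e : (1 + N) * (1 - N) = 1 - N * N := by noncomm_ring
      rw [e, hA2', sub_zero]
    refine (H98.gl_ext fun v => ?_ : H98.transGL (t • f) x ht = a' * b * a'⁻¹ * b⁻¹) ▸
      mul_mem (mul_mem (mul_mem ha' hb) (inv_mem ha')) (inv_mem hb)
    rw [Units.val_mul, Units.val_mul, Units.val_mul, ha'v, hbv, ha'i, hbi,
      commutator_square_zero hA2' hB2 hBA', Matrix.add_mulVec, Matrix.one_mulVec, ← Matrix.mulVec_mulVec, hBv,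
      Matrix.smul_mulVec, hAv, hφh, algebraMap_smul, H98.transGL_mulVec, LinearMap.smul_apply, smul_assoc]
    rfl
  have hw0 : x ≠ 0 := by
    intro hx0
    have : w = 0 := H98.gl_mulVec_injective h (by simpa using hxdef.symm.trans hx0)
    refine hw ?_
    rw [hydef, this, smul_zero, Matrix.mulVec_zero]
    exact zero_mem _
  refine H.sl_le_of_transKer hw0 fun p hp => ?_
  by_contra hpx
  -- the kernel then contains all vectors off the line of `x`
  have hoff : ∀ q, q ∉ Submodule.span E {x} → q ∈ transKer M x := by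
    intro q hq
    have key : ∀ {p q : ι → F}, p ∈ transKer M x → p ∉ Submodule.span E {x} →
        q ∉ Submodule.span E {x} ⊔ Submodule.span E {p} → q ∈ transKer M x := by
      intro p q hp hpx hq
      obtain ⟨g, hg, hgx, hgp⟩ := H.exists_move_off hpx hq
      have := transKer_invariant hg (by simpa using hgx 1) hp
      rwa [hgp] at this
    by_cases hqp : q ∈ Submodule.span E {x} ⊔ Submodule.span E {p}
    · obtain ⟨o, ho⟩ := h3 x p
      have hox : o ∉ Submodule.span E {x} := fun hh => ho (Submodule.mem_sup_left hh)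
      refine key (key hp hpx ho) hox fun hqo => ?_
      obtain ⟨_, hs, _, ht, hsum⟩ := Submodule.mem_sup.1 hqo
      obtain ⟨s, rfl⟩ := Submodule.mem_span_singleton.1 hs
      obtain ⟨t, rfl⟩ := Submodule.mem_span_singleton.1 ht
      rcases eq_or_ne t 0 with rfl | ht0
      · exact hq (by rw [← hsum, zero_smul, add_zero]; exact
          Submodule.smul_mem _ _ (Submodule.mem_span_singleton_self x))
      · refine ho ?_
        rw [← inv_smul_smul₀ ht0 o, show t • o = q - s • x by rw [← hsum]; abel]
        exact Submodule.smul_mem _ _ (Submodule.sub_mem _ hqp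
          (Submodule.smul_mem _ _ (Submodule.mem_sup_left (Submodule.mem_span_singleton_self x))))
    · exact key hp hpx hqp
  refine hfne (LinearMap.ext fun q => ?_)
  rw [LinearMap.zero_apply]
  by_cases hq : q ∈ Submodule.span E {x}
  · have h' : p + q ∉ Submodule.span E {x} := fun hpq => hpx (by simpa using Submodule.sub_mem _ hpq hq)
    have := Submodule.sub_mem _ (hoff _ h') hp
    rw [add_sub_cancel_left] at this
    exact mem_transKer.1 this f hf
  · exact mem_transKer.1 (hoff q hq) f hf

end Cfsg.Agent.H58.ExtField
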