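import Cfsg.Agent.H58.ExtField.Four
import Cfsg.Agent.H58.ExtField.Quadratic
import Cfsg.Agent.H99.Aschbacher.Maximal
import Mathlib.LinearAlgebra.Transvection.Basic
import Mathlib.RingTheory.Norm.Transitivity
import Mathlib.FieldTheory.Finite.GaloisField

/-!
# The normaliser of an extension field of prime degree is maximal

Translation from field subalgebras of the matrix algebra to vector spaces over the extension.
-/

set_option autoImplicit false
set_option linter.unusedSectionVars false
set_option linter.unusedVariables false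

namespace Cfsg.Agent.H58.ExtField

open scoped Matrix

open Cfsg.Geo

variable {ι : Type} [Fintype ι] [DecidableEq ι] {F : Type*} [Field F] [Fintype F]

/-- A field subalgebra is a field. -/
theorem isField_subalgebra [Nonempty ι] {r : ℕ} {K : Subalgebra F (Matrix ι ι F)}
    (hK : IsFieldSubalgebra r K) : IsField K where
  exists_pair_ne := ⟨0, 1, fun e => zero_ne_one (congrArg Subtype.val e)⟩
  mul_comm a b := Subtype.ext (hK.comm a a.2 b b.2)
  mul_inv_cancel {a} ha := by
    obtain ⟨y, hy, hxy⟩ := hK.inv a a.2 (fun e => ha (Subtype.ext e))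
    exact ⟨⟨y, hy⟩, Subtype.ext hxy⟩

/-- An element conjugating a finite subalgebra into itself normalises it. -/
theorem mem_normalizer_of_conj {K : Subalgebra F (Matrix ι ι F)} {g : GL ι F}
    (h : ∀ k ∈ K, (g : Matrix ι ι F) * k * ((g⁻¹ : GL ι F) : Matrix ι ι F) ∈ K) :
    g ∈ subalgebraNormalizer K := by
  refine fun k => ⟨h k, fun hk => ?_⟩
  have hinj : Function.Injective fun a : K =>
      (⟨(g : Matrix ι ι F) * a * ((g⁻¹ : GL ι F) : Matrix ι ι F), h a a.2⟩ : K) := by
    intro a b hab
    have := congrArg Subtype.val hab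
    exact Subtype.ext ((Units.mul_right_inj g).1 ((Units.mul_left_inj g⁻¹).1 this))
  obtain ⟨a, ha⟩ := Finite.surjective_of_injective hinj ⟨_, hk⟩
  have := congrArg Subtype.val ha
  exact (Units.mul_right_inj g).1 ((Units.mul_left_inj g⁻¹).1 this) ▸ a.2

section FK

variable [Nonempty ι] {r : ℕ} {K : Subalgebra F (Matrix ι ι F)}

/-- The field subalgebra as a type of its own. -/
def FK (hK : IsFieldSubalgebra r K) : Type _ := ↥K

noncomputable instance instCommRing (hK : IsFieldSubalgebra r K) : CommRing (FK hK) :=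
  { (K.toRing : Ring (FK hK)) with mul_comm := (isField_subalgebra hK).mul_comm }

open scoped Classical in
noncomputable instance instField (hK : IsFieldSubalgebra r K) : Field (FK hK) where
  __ := instCommRing hK
  exists_pair_ne := (isField_subalgebra hK).exists_pair_ne
  inv a := if h : a = 0 then 0 else Classical.choose ((isField_subalgebra hK).mul_inv_cancel h)
  mul_inv_cancel a h := by
    simp only [dif_neg h]
    exact Classical.choose_spec ((isField_subalgebra hK).mul_inv_cancel h)
  inv_zero := dif_pos rfl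
  nnqsmul := _
  qsmul := _

/-- An element of the field as a matrix. -/
def FK.mat {hK : IsFieldSubalgebra r K} (k : FK hK) : Matrix ι ι F := (k : ↥K).1

/-- A matrix of the field as an element. -/
def FK.mk (hK : IsFieldSubalgebra r K) (k : Matrix ι ι F) (hk : k ∈ K) : FK hK := (⟨k, hk⟩ : ↥K)

/-- The matrices of the elements, as a ring homomorphism. -/
noncomputable def FK.matHom (hK : IsFieldSubalgebra r K) : FK hK →+* Matrix ι ι F :=
  (K.val : ↥K →ₐ[F] Matrix ι ι F).toRingHom

noncomputable instance instAlgebra (hK : IsFieldSubalgebra r K) : Algebra F (FK hK) :=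
  RingHom.toAlgebra (R := F) (S := FK hK) (algebraMap F ↥K)

noncomputable instance instModule (hK : IsFieldSubalgebra r K) : Module (FK hK) (ι → F) :=
  Module.compHom (ι → F)
    ((Matrix.toLinAlgEquiv' : Matrix ι ι F ≃ₐ[F] _).toAlgHom.toRingHom.comp (FK.matHom hK))

theorem FK.smul_eq {hK : IsFieldSubalgebra r K} (k : FK hK) (v : ι → F) : k • v = k.mat *ᵥ v := rfl

theorem FK.mat_smul {hK : IsFieldSubalgebra r K} (c : F) (k : FK hK) : (c • k).mat = c • k.mat := by
  show ((algebraMap F ↥K c : ↥K) : Matrix ι ι F) * k.mat = c • k.mat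
  rw [Subalgebra.coe_algebraMap, ← Algebra.smul_def]

instance instTower (hK : IsFieldSubalgebra r K) : IsScalarTower F (FK hK) (ι → F) :=
  ⟨fun c k v => by rw [FK.smul_eq, FK.smul_eq, FK.mat_smul, Matrix.smul_mulVec]⟩

noncomputable instance instFintype (hK : IsFieldSubalgebra r K) : Fintype (FK hK) :=
  haveI : Finite (FK hK) := inferInstanceAs (Finite ↥K)
  Fintype.ofFinite _

theorem FK.finrank_eq (hK : IsFieldSubalgebra r K) : Module.finrank F (FK hK) = r := by
  refine Eq.trans (LinearEquiv.finrank_eq ?_) hK.finrank_eq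
  exact
    { toFun := fun k => (k : ↥K)
      invFun := fun k => k
      map_add' := fun _ _ => rfl
      map_smul' := fun c k => Subtype.ext (FK.mat_smul c k)
      left_inv := fun _ => rfl
      right_inv := fun _ => rfl }

instance instFree (hK : IsFieldSubalgebra r K) : Module.Free F (FK hK) :=
  @Module.Free.of_divisionRing F (FK hK) _ _ (instAlgebra hK).toModule

end FK

/-- Overgroups in and determinants on the normaliser. -/
theorem field_key {r : ℕ} {K : Subalgebra F (Matrix ι ι F)} (hr : r.Prime) (hlt : r < Fintype.card ι)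
    (hK : IsFieldSubalgebra r K) :
    (∀ M : Subgroup (GL ι F), subalgebraNormalizer K ⊓ specialLinear ι F ≤ M →
      ¬ M ≤ subalgebraNormalizer K → specialLinear ι F ≤ M) ∧
    ∀ d : Fˣ, ∃ g ∈ subalgebraNormalizer K, Matrix.GeneralLinearGroup.det g = d := by
  classical
  have : Nonempty ι := Fintype.card_pos_iff.1 (by omega)
  have hfr : Module.finrank F (FK hK) = r := FK.finrank_eq hK
  have hn : r * Module.finrank (FK hK) (ι → F) = Fintype.card ι := by
    have := Module.finrank_mul_finrank F (FK hK) (ι → F)
    rwa [hfr, Module.finrank_fintype_fun_eq_card] at this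
  have hd2 : 2 ≤ Module.finrank (FK hK) (ι → F) := by
    by_contra h
    have := Nat.mul_le_mul_left r (Nat.lt_succ_iff.1 (not_le.1 h))
    omega
  have hindep : ∀ v : ι → F, ∃ w : ι → F, w ∉ Submodule.span (FK hK) {v} := by
    intro v
    by_contra h
    push Not at h
    have h1 : Module.finrank (FK hK) (ι → F) ≤ 1 := finrank_le_one v fun w => Submodule.mem_span_singleton.1 (h w)
    omega
  have hext : ∀ {P Q : Matrix ι ι F}, (∀ v, P *ᵥ v = Q *ᵥ v) → P = Q := fun he =>
    Matrix.ext_of_mulVec_single fun _ => he _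
  have hlin : ∀ g : GL ι F, ELin (FK hK) g → g ∈ subalgebraNormalizer K := by
    intro g hg
    refine mem_normalizer_of_conj fun k hk => ?_
    have : (g : Matrix ι ι F) * k * ((g⁻¹ : GL ι F) : Matrix ι ι F) = k := hext fun v => by
      rw [← Matrix.mulVec_mulVec, ← Matrix.mulVec_mulVec]
      have := hg (FK.mk hK k hk) (((g⁻¹ : GL ι F) : Matrix ι ι F) *ᵥ v)
      rw [FK.smul_eq, FK.smul_eq, H98.gl_mulVec_inv] at this
      exact this
    rwa [this]
  have hsemi : ∀ g : GL ι F, Semi (FK hK) g → g ∈ subalgebraNormalizer K := by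
    intro g hg
    refine mem_normalizer_of_conj fun k hk => ?_
    obtain ⟨d, hd⟩ := hg (FK.mk hK k hk)
    have : (g : Matrix ι ι F) * k * ((g⁻¹ : GL ι F) : Matrix ι ι F) = d.mat := hext fun v => by
      rw [← Matrix.mulVec_mulVec, ← Matrix.mulVec_mulVec]
      have := hd (((g⁻¹ : GL ι F) : Matrix ι ι F) *ᵥ v)
      rw [FK.smul_eq, FK.smul_eq, H98.gl_mulVec_inv] at this
      exact this
    rw [this]
    exact (d : ↥K).2
  refine ⟨fun M hle hout => ?_, fun d => ?_⟩
  · obtain ⟨h, hh, hh'⟩ := SetLike.not_le_iff_exists.1 hout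
    have H : Ctx (FK hK) M :=
      { prime := by rw [hfr]; exact hr
        indep := hindep
        lin := fun g hg hl => hle ⟨hlin g hl, hg⟩
        notSemi := ⟨h, hh, fun hs => hh' (hsemi h hs)⟩ }
    by_cases hex : Fintype.card F = 2 ∧ Module.finrank F (FK hK) = 2
    · by_cases h4 : Module.finrank (FK hK) (ι → F) = 2
      · exact H.sl_le_four hex.1 hex.2 (by rw [← hn, h4, ← hfr, hex.2])
      · refine H.sl_le_quadratic hex.2 fun a b => ?_
        by_contra h
        push Not at h
        have htop : Submodule.span (FK hK) ({a, b} : Set (ι → F)) = ⊤ := eq_top_iff.2 fun x _ => by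
          rw [Submodule.span_insert]; exact h x
        have h1 := finrank_span_le_card (R := (FK hK)) ({a, b} : Set (ι → F))
        rw [htop, finrank_top] at h1
        have h2 : ({a, b} : Set (ι → F)).toFinset.card ≤ 2 := by simpa using Finset.card_le_two (a := a) (b := b)
        omega
    · exact H.sl_le hex
  · obtain ⟨c, hc⟩ := FiniteField.unitsMap_norm_surjective F (FK hK) d
    obtain ⟨u, hu⟩ := hindep 0
    obtain ⟨ψ, h1, -⟩ := exists_efunctional hu
    refine ⟨scal u ψ h1 c, hlin _ (scal_elin h1 c), Units.ext ?_⟩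
    rw [← hc, Matrix.GeneralLinearGroup.val_det_apply, Units.coe_map]
    show (LinearMap.toMatrix' (scalMap u ψ (c : (FK hK)))).det = Algebra.norm F (c : (FK hK))
    have e : scalMap u ψ (c : (FK hK)) =
        (LinearMap.transvection (((c : (FK hK)) - 1) • ψ) u).restrictScalars F := by
      refine LinearMap.ext fun x => ?_
      rw [scalMap_apply, LinearMap.restrictScalars_apply, LinearMap.transvection.apply]
      rfl
    rw [LinearMap.det_toMatrix', e, LinearMap.det_restrictScalars, LinearMap.transvection.det,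
      LinearMap.smul_apply, h1, smul_eq_mul, mul_one, add_sub_cancel]

theorem not_sl_le {r : ℕ} {K : Subalgebra F (Matrix ι ι F)} (hr : r.Prime) (hn : 3 ≤ Fintype.card ι)
    (hK : IsFieldSubalgebra r K) : ¬ specialLinear ι F ≤ subalgebraNormalizer K :=
  H99.Asch.sl_not_le_field hn hr hK

/-- The normaliser meets the special linear group in a maximal subgroup. -/
theorem field_maximal_sl {r : ℕ} {K : Subalgebra F (Matrix ι ι F)} (hr : r.Prime) (hlt : r < Fintype.card ι)
    (hK : IsFieldSubalgebra r K) :
    IsMaximalIn (specialLinear ι F) (subalgebraNormalizer K ⊓ specialLinear ι F) := by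
  have h3 : 3 ≤ Fintype.card ι := by have := hr.two_le; omega
  refine ⟨lt_of_le_of_ne inf_le_right fun e => not_sl_le hr h3 hK (e ▸ inf_le_left), fun M h1 h2 => ?_⟩
  by_cases hM : M ≤ subalgebraNormalizer K
  · exact Or.inl (le_antisymm (le_inf hM h2) h1)
  · exact Or.inr (le_antisymm h2 ((field_key hr hlt hK).1 M h1 hM))

/-- The normaliser is maximal in the general linear group. -/
theorem field_maximal_gl {r : ℕ} {K : Subalgebra F (Matrix ι ι F)} (hr : r.Prime) (hlt : r < Fintype.card ι)
    (hK : IsFieldSubalgebra r K) : IsCoatom (subalgebraNormalizer K) := by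
  have h3 : 3 ≤ Fintype.card ι := by have := hr.two_le; omega
  refine ⟨fun e => not_sl_le hr h3 hK (e ▸ le_top), fun M hM => eq_top_iff.2 fun g _ => ?_⟩
  have hsl := (field_key hr hlt hK).1 M (inf_le_left.trans hM.le) hM.not_ge
  obtain ⟨k, hk, hkd⟩ := (field_key hr hlt hK).2 (Matrix.GeneralLinearGroup.det g)
  have hmem : g * k⁻¹ ∈ specialLinear ι F := by
    rw [specialLinear, MonoidHom.mem_ker, map_mul, map_inv, hkd, mul_inv_cancel]
  have := mul_mem (hsl hmem) (hM.le hk)
  rwa [inv_mul_cancel_right] at this

end Cfsg.Agent.H58.ExtField
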