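import Cfsg.Agent.H58.ExtField.Count

/-!
# The quadratic extension of the field of two elements in dimension four

In the basis `v, x v, l v, l x v`, with `x` a conjugate of the scalar `l` that is not linear over the extension,
an explicit word in `x` and four linear maps is a transvection.
-/

set_option autoImplicit false
set_option linter.unusedSectionVars false
set_option linter.unusedVariables false

namespace Cfsg.Agent.H58.ExtField

open scoped Matrix

/-- Matrices of the four point computation. -/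
abbrev Four := Matrix (Fin 4) (Fin 4) (ZMod 2)

/-- The scalar. -/
def four_L : Four := !![0, 0, 1, 0; 0, 0, 0, 1; 1, 0, 1, 0; 0, 1, 0, 1]
/-- A partial scalar. -/
def four_D : Four := !![0, 0, 1, 0; 0, 1, 0, 0; 1, 0, 1, 0; 0, 0, 0, 1]
/-- The swap. -/
def four_W : Four := !![0, 1, 0, 0; 1, 0, 0, 0; 0, 0, 0, 1; 0, 0, 1, 0]
/-- A unipotent. -/
def four_U : Four := !![1, 1, 0, 0; 0, 1, 0, 0; 0, 0, 1, 1; 0, 0, 0, 1]
/-- The target transvection. -/
def four_T : Four := !![1, 1, 0, 0; 0, 1, 0, 0; 0, 0, 1, 0; 0, 0, 0, 1]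
/-- The candidates for the conjugate scalar. -/
def four_X (a b : Fin 4 → ZMod 2) : Four :=
  !![0, 1, a 0, b 0; 1, 1, a 1, b 1; 0, 0, a 2, b 2; 0, 0, a 3, b 3]
/-- The generators. -/
def four_gen (X : Four) : Fin 5 → Four := ![X, four_L, four_D, four_W, four_U]

theorem four_cases : ∀ a b : Fin 4 → ZMod 2, four_X a b * four_X a b = four_X a b + 1 →
    four_X a b * four_L = four_L * four_X a b ∨
    (a = ![1, 0, 0, 1] ∧ b = ![1, 1, 1, 1]) ∨ (a = ![0, 1, 0, 1] ∧ b = ![1, 0, 1, 1]) ∨
    (a = ![1, 1, 0, 1] ∧ b = ![0, 1, 1, 1]) ∨ (a = ![0, 0, 1, 1] ∧ b = ![0, 0, 1, 0]) ∨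
    (a = ![1, 0, 1, 1] ∧ b = ![0, 1, 1, 0]) ∨ (a = ![0, 1, 1, 1] ∧ b = ![1, 1, 1, 0]) ∨
    (a = ![1, 1, 1, 1] ∧ b = ![1, 0, 1, 0]) := by
  decide +kernel

theorem four_word (a b : Fin 4 → ZMod 2) (h : four_X a b * four_X a b = four_X a b + 1)
    (hL : four_X a b * four_L ≠ four_L * four_X a b) :
    ∃ w : List (Fin 5), (w.map (four_gen (four_X a b))).prod = four_T := by
  rcases four_cases a b h with h | ⟨rfl, rfl⟩ | ⟨rfl, rfl⟩ | ⟨rfl, rfl⟩ | ⟨rfl, rfl⟩ | ⟨rfl, rfl⟩ |
    ⟨rfl, rfl⟩ | ⟨rfl, rfl⟩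
  · exact absurd h hL
  · exact ⟨[2, 0, 2, 3, 4, 0, 1, 0, 0], by decide +kernel⟩
  · exact ⟨[3, 0, 2, 4, 3, 0, 2], by decide +kernel⟩
  · exact ⟨[0, 4, 2, 3, 0, 4, 2, 3], by decide +kernel⟩
  · exact ⟨[0, 3, 2, 4, 3, 2, 4, 0, 2, 0, 2, 2], by decide +kernel⟩
  · exact ⟨[3, 0, 2, 2, 4, 3, 0, 2, 4, 3, 0, 2], by decide +kernel⟩
  · exact ⟨[3, 0, 2, 4, 3, 0, 2, 4, 0, 2], by decide +kernel⟩
  · exact ⟨[3, 2, 4, 3, 2, 0, 4, 2, 4, 3, 1], by decide +kernel⟩

theorem four_noncomm : ∀ a b : Fin 4 → ZMod 2, four_X a b * four_X a b = four_X a b + 1 →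
    four_X a b * four_L = four_L * four_X a b →
    four_X a b * (four_D * four_X a b * (four_D * four_D)) ≠
      four_D * four_X a b * (four_D * four_D) * four_X a b := by
  decide +kernel

theorem four_relations : four_L * (four_L * four_L) = 1 ∧ four_D * (four_D * four_D) = 1 ∧
    four_W * four_W = 1 ∧ four_U * four_U = 1 ∧ four_D * four_L = four_L * four_D ∧
    four_W * four_L = four_L * four_W ∧ four_U * four_L = four_L * four_U := by
  decide +kernel

variable {ι : Type} [Fintype ι] [DecidableEq ι] {F : Type*} [Field F] [Fintype F]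
variable {E : Type*} [Field E] [Fintype E] [Algebra F E] [Module E (ι → F)] [IsScalarTower F E (ι → F)]
variable {M : Subgroup (GL ι F)}

/-- The exceptional case. -/
theorem Ctx.sl_le_four (H : Ctx E M) (hq : Fintype.card F = 2) (hr : Module.finrank F E = 2)
    (hn : Fintype.card ι = 4) : Cfsg.Geo.specialLinear ι F ≤ M := by
  classical
  have hc2 : CharP F 2 := by
    obtain ⟨p, hp⟩ := CharP.exists F
    have hpp := CharP.char_is_prime F p
    have : Fact p.Prime := ⟨hpp⟩
    obtain ⟨n, -, hn⟩ := FiniteField.card F p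
    rw [hq] at hn
    have : p = 2 := (Nat.prime_dvd_prime_iff_eq hpp Nat.prime_two).1 ⟨p ^ ((n : ℕ) - 1), by
      rw [← pow_succ', show (n : ℕ) - 1 + 1 = n by have := n.pos; omega]; exact hn⟩
    exact this ▸ hp
  have hunit : ∀ u : Fˣ, u = 1 := by
    intro u
    have h1 : Fintype.card Fˣ = 1 := by rw [Fintype.card_units, hq]
    exact (Fintype.card_le_one_iff.1 h1.le) u 1
  have hlin : ∀ g : GL ι F, ELin E g → g ∈ M := fun g hg =>
    H.lin g (MonoidHom.mem_ker.2 (hunit _)) hg
  -- the generator of the extension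
  obtain ⟨l, hl⟩ : ∃ l : E, l ∉ Set.range (algebraMap F E) := by
    by_contra hc
    push Not at hc
    have h1 := Fintype.card_le_of_surjective _ hc
    rw [← Nat.card_eq_fintype_card (α := E), card_E F E, hr, hq] at h1
    norm_num at h1
  have hl2 : l * l = l + 1 := by
    have hE : Fintype.card E = 4 := by rw [← Nat.card_eq_fintype_card, card_E F E, hr, hq]; norm_num
    have hl0 : l ≠ 0 := fun h => hl ⟨0, by rw [h, map_zero]⟩
    have h3 : l ^ 3 = 1 := by
      have := FiniteField.pow_card_sub_one_eq_one l hl0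
      rwa [hE] at this
    have hl1 : l - 1 ≠ 0 := fun h => hl ⟨1, by rw [map_one, ← sub_eq_zero.1 h]⟩
    have h : (l - 1) * (l * l + l + 1) = 0 := by linear_combination h3
    have : CharP E 2 := charP_of_injective_algebraMap (algebraMap F E).injective 2
    have h2 : (2 : E) = 0 := CharTwo.two_eq_zero
    linear_combination (mul_eq_zero.1 h).resolve_left hl1 - (l + 1) * h2
  have hEc : ∀ c : E, ∃ s t : F, c = algebraMap F E s + algebraMap F E t * l := by
    intro c
    have hinj : Function.Injective fun p : F × F => algebraMap F E p.1 + algebraMap F E p.2 * l := by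
      rintro ⟨s, t⟩ ⟨s', t'⟩ h
      simp only at h
      by_cases ht : t = t'
      · subst ht
        simpa using h
      · refine absurd ⟨(s' - s) / (t - t'), ?_⟩ hl
        have hne : algebraMap F E (t - t') ≠ 0 := by simpa [sub_eq_zero] using ht
        rw [map_div₀, div_eq_iff hne, map_sub, map_sub]
        linear_combination -h
    have hsurj := ((Fintype.bijective_iff_injective_and_card _).2 ⟨hinj, by
      rw [Fintype.card_prod, ← Nat.card_eq_fintype_card (α := E), card_E F E, hr, pow_two]⟩).2 c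
    obtain ⟨⟨s, t⟩, h⟩ := hsurj
    exact ⟨s, t, h.symm⟩
  set Lv : Matrix ι ι F := LinearMap.toMatrix' (DistribSMul.toLinearMap F (ι → F) l) with hLv
  have hLvv : ∀ y, Lv *ᵥ y = l • y := fun y => LinearMap.toMatrix'_mulVec _ _
  have hext : ∀ {P Q : Matrix ι ι F}, (∀ v, P *ᵥ v = Q *ᵥ v) → P = Q := fun he =>
    Matrix.ext_of_mulVec_single fun _ => he _
  have helin : ∀ g : GL ι F, (g : Matrix ι ι F) * Lv = Lv * (g : Matrix ι ι F) → ELin E g := by
    intro g hg c y
    obtain ⟨s, t, rfl⟩ := hEc c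
    have h1 : ∀ z, (g : Matrix ι ι F) *ᵥ (l • z) = l • ((g : Matrix ι ι F) *ᵥ z) := fun z => by
      rw [← hLvv, ← hLvv, Matrix.mulVec_mulVec, Matrix.mulVec_mulVec, hg]
    simp only [add_smul, mul_smul, algebraMap_smul, Matrix.mulVec_add, Matrix.mulVec_smul, h1]
  -- the conjugates of the scalar
  set C : GL ι F → Matrix ι ι F :=
    fun g => (g : Matrix ι ι F) * Lv * ((g⁻¹ : GL ι F) : Matrix ι ι F) with hC
  have hCv : ∀ g y, C g *ᵥ y = (g : Matrix ι ι F) *ᵥ (l • (((g⁻¹ : GL ι F) : Matrix ι ι F) *ᵥ y)) :=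
    fun g y => by simp only [C, ← Matrix.mulVec_mulVec, hLvv]
  have hC2 : ∀ g, C g * C g = C g + 1 := fun g => hext fun y => by
    rw [← Matrix.mulVec_mulVec, Matrix.add_mulVec, Matrix.one_mulVec, hCv g (C g *ᵥ y), hCv, H98.gl_inv_mulVec,
      smul_smul, hl2, add_smul, one_smul, Matrix.mulVec_add, H98.gl_mulVec_inv]
  have hmoved : ∀ g, ¬ Semi E g → ∃ v, C g *ᵥ v ∉ Submodule.span E {v} := by
    intro g hg
    by_contra hc
    push Not at hc
    refine hg (semi_of_one H.prime g hl ?_)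
    obtain ⟨d, hd⟩ := eq_scalar_of_line (E := E) (T := Matrix.mulVecLin (C g)) H.indep hc
    refine ⟨d, fun y => ?_⟩
    have := hd ((g : Matrix ι ι F) *ᵥ y)
    rwa [Matrix.mulVecLin_apply, hCv, H98.gl_inv_mulVec] at this
  -- coordinates adapted to a conjugate
  let f : ZMod 2 →+* F := ZMod.castHom dvd_rfl F
  have hfs : Function.Surjective f :=
    ((Fintype.bijective_iff_injective_and_card f).2 ⟨f.injective, by rw [ZMod.card, hq]⟩).2
  have coords : ∀ (x : Matrix ι ι F) (v : ι → F), x * x = x + 1 → x *ᵥ v ∉ Submodule.span E {v} →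
      ∃ φ : Four →+* Matrix ι ι F, Function.Injective φ ∧ φ four_L = Lv ∧
        (∃ a b, φ (four_X a b) = x) ∧
        ∃ ε : (ι → F) →ₗ[F] F, (∀ y, φ four_T *ᵥ y = y + ε y • v) ∧ ε v = 0 ∧ ε (l • v) = 0 ∧
          ε (x *ᵥ v) = 1 := by
    intro x v hx2 hxv
    set u := x *ᵥ v with hu
    have hv0 : v ≠ 0 := fun h => hxv (by rw [hu, h, Matrix.mulVec_zero]; exact zero_mem _)
    have hli : LinearIndependent F ![v, u, l • v, l • u] := by
      rw [Fintype.linearIndependent_iff]
      intro s hs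
      simp only [Fin.sum_univ_four, Matrix.cons_val] at hs
      set c1 := algebraMap F E (s 0) + algebraMap F E (s 2) * l
      set c2 := algebraMap F E (s 1) + algebraMap F E (s 3) * l
      have h12 : c1 • v + c2 • u = 0 := by
        simp only [c1, c2, add_smul, mul_smul, algebraMap_smul]
        rw [← hs]; abel
      have hc2 : c2 = 0 := by
        by_contra hne
        refine hxv ?_
        rw [← inv_smul_smul₀ hne u, eq_neg_of_add_eq_zero_right h12]
        exact Submodule.smul_mem _ _ (Submodule.neg_mem _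
          (Submodule.smul_mem _ _ (Submodule.mem_span_singleton_self v)))
      rw [hc2, zero_smul, add_zero] at h12
      have hc1 : c1 = 0 := (smul_eq_zero.1 h12).resolve_right hv0
      have key : ∀ s t : F, algebraMap F E s + algebraMap F E t * l = 0 → s = 0 ∧ t = 0 := by
        intro s t h
        rcases eq_or_ne t 0 with rfl | ht
        · exact ⟨by simpa using h, rfl⟩
        · refine absurd ⟨-s / t, ?_⟩ hl
          rw [map_div₀, map_neg, div_eq_iff (by simpa using ht)]
          linear_combination -h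
      obtain ⟨h0, h2⟩ := key _ _ hc1
      obtain ⟨h1, h3⟩ := key _ _ hc2
      intro i
      fin_cases i <;> assumption
    let bas : Module.Basis (Fin 4) F (ι → F) :=
      basisOfLinearIndependentOfCardEqFinrank hli (by rw [Module.finrank_fintype_fun_eq_card, hn, Fintype.card_fin])
    have hb : ∀ i, bas i = ![v, u, l • v, l • u] i := fun i => by simp [bas]
    let φ : Four →+* Matrix ι ι F :=
      ((LinearMap.toMatrixAlgEquiv' : ((ι → F) →ₗ[F] (ι → F)) ≃ₐ[F] _).toRingEquiv.toRingHom.comp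
        ((Matrix.toLinAlgEquiv bas).toRingEquiv.toRingHom)).comp f.mapMatrix
    have hφb : ∀ (A : Four) j, φ A *ᵥ bas j = ∑ i, f (A i j) • bas i := by
      intro A j
      show LinearMap.toMatrix' (Matrix.toLinAlgEquiv bas (A.map f)) *ᵥ bas j = _
      rw [LinearMap.toMatrix'_mulVec, Matrix.toLinAlgEquiv_self]
      rfl
    have hφinj : Function.Injective φ :=
      ((LinearMap.toMatrixAlgEquiv').injective.comp (Matrix.toLinAlgEquiv bas).injective).comp
        (fun A B h => Matrix.ext fun i j => f.injective (congrFun (congrFun h i) j))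
    have hφext : ∀ (A : Four) (y : Matrix ι ι F), (∀ j, φ A *ᵥ bas j = y *ᵥ bas j) → φ A = y := by
      intro A y h
      apply Matrix.toLin'.injective
      exact bas.ext fun j => by simpa using h j
    have hll : ∀ y : ι → F, l • l • y = y + l • y := fun y => by
      rw [smul_smul, hl2, add_smul, one_smul, add_comm]
    refine ⟨φ, hφinj, hφext _ _ fun j => ?_, ?_, bas.coord 1, fun y => ?_, ?_, ?_, ?_⟩
    · rw [hφb, hLvv, Fin.sum_univ_four]
      fin_cases j <;>
        simp [four_L, hb, hll, map_zero, map_one] <;> abel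
    · choose g hg using hfs
      refine ⟨fun i => g (bas.repr (x *ᵥ bas 2) i), fun i => g (bas.repr (x *ᵥ bas 3) i),
        hφext _ _ fun j => ?_⟩
      rw [hφb]
      have hsum : ∀ z, ∑ i, bas.repr z i • bas i = z := bas.sum_repr
      simp only [Fin.sum_univ_four] at hsum
      fin_cases j
      · simp [four_X, Fin.sum_univ_four, hb, hu]
      · simp [four_X, Fin.sum_univ_four, hb, hu, Matrix.mulVec_mulVec, hx2, Matrix.add_mulVec,
          add_comm]
      · simp [four_X, Fin.sum_univ_four, hg]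
        exact hsum _
      · simp [four_X, Fin.sum_univ_four, hg]
        exact hsum _
    · have : Matrix.toLin' (φ four_T) = LinearMap.id + (bas.coord 1).smulRight v := by
        refine bas.ext fun j => ?_
        rw [Matrix.toLin'_apply, hφb, Fin.sum_univ_four, LinearMap.add_apply, LinearMap.smulRight_apply,
          Module.Basis.coord_apply, bas.repr_self, Finsupp.single_apply]
        fin_cases j <;> simp [four_T, hb] <;> abel
      exact LinearMap.congr_fun this y
    · have := bas.repr_self 0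
      rw [hb] at this
      simp only [Matrix.cons_val] at this
      simp [this]
    · have := bas.repr_self 2
      rw [hb] at this
      simp only [Matrix.cons_val] at this
      simp [this]
    · have := bas.repr_self 1
      rw [hb] at this
      simp only [Matrix.cons_val] at this
      simp [this]
  -- the linear generators lie in `M`
  have gens : ∀ φ : Four →+* Matrix ι ι F, φ four_L = Lv → ∀ A B : Four, A * B = 1 → B * A = 1 →
      A * four_L = four_L * A → ∃ g ∈ M, (g : Matrix ι ι F) = φ A := by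
    intro φ hφ A B h1 h2 h3
    refine ⟨⟨φ A, φ B, by rw [← map_mul, h1, map_one], by rw [← map_mul, h2, map_one]⟩, hlin _ (helin _ ?_), rfl⟩
    show φ A * Lv = Lv * φ A
    rw [← hφ, ← map_mul, h3, map_mul]
  obtain ⟨rL, rD, rW, rU, cD, cW, cU⟩ := four_relations
  have rD' : four_D * four_D * four_D = 1 := by rw [Matrix.mul_assoc]; exact rD
  have rL' : four_L * four_L * four_L = 1 := by rw [Matrix.mul_assoc]; exact rL
  obtain ⟨h0, hh0, hns⟩ := H.notSemi
  -- a conjugate not commuting with the scalar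
  obtain ⟨h, hh, hnc⟩ : ∃ h ∈ M, C h * Lv ≠ Lv * C h := by
    by_contra hc
    push Not at hc
    obtain ⟨v, hv⟩ := hmoved h0 hns
    obtain ⟨φ, hinj, hL, ⟨a, b, hab⟩, -⟩ := coords _ v (hC2 h0) hv
    have hX : four_X a b * four_X a b = four_X a b + 1 := hinj (by
      rw [map_mul, map_add, map_one, hab, hC2])
    have hXL : four_X a b * four_L = four_L * four_X a b := hinj (by
      rw [map_mul, map_mul, hab, hL]; exact hc h0 hh0)
    obtain ⟨n, hnM, hnv⟩ := gens φ hL four_D (four_D * four_D) rD rD' cD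
    have hninv : ((n⁻¹ : GL ι F) : Matrix ι ι F) = φ (four_D * four_D) :=
      Units.inv_eq_of_mul_eq_one_right (by rw [hnv, ← map_mul, rD, map_one])
    refine four_noncomm a b hX hXL (hinj ?_)
    have key := hc (h0⁻¹ * (n * h0)) (mul_mem (inv_mem hh0) (mul_mem hnM hh0))
    have hCn : C (n * h0) = φ (four_D * four_X a b * (four_D * four_D)) := by
      rw [map_mul, map_mul, hab, ← hnv, ← hninv]
      simp only [C, mul_inv_rev, Units.val_mul, Matrix.mul_assoc]
    have e : ∀ g : GL ι F, C (h0 * g) = (h0 : Matrix ι ι F) * C g * ((h0⁻¹ : GL ι F) : Matrix ι ι F) :=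
      fun g => by simp only [C, mul_inv_rev, Units.val_mul, Matrix.mul_assoc]
    have hCm := e (h0⁻¹ * (n * h0))
    rw [mul_inv_cancel_left] at hCm
    rw [map_mul φ (four_X a b), map_mul φ (four_D * four_X a b * (four_D * four_D)), hab, ← hCn,
      hCm]
    show (h0 : Matrix ι ι F) * Lv * ((h0⁻¹ : GL ι F) : Matrix ι ι F) *
        ((h0 : Matrix ι ι F) * C (h0⁻¹ * (n * h0)) * ((h0⁻¹ : GL ι F) : Matrix ι ι F)) =
      (h0 : Matrix ι ι F) * C (h0⁻¹ * (n * h0)) * ((h0⁻¹ : GL ι F) : Matrix ι ι F) *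
        ((h0 : Matrix ι ι F) * Lv * ((h0⁻¹ : GL ι F) : Matrix ι ι F))
    simp only [Matrix.mul_assoc, Units.inv_mul_cancel_left]
    rw [← Matrix.mul_assoc Lv, ← key, Matrix.mul_assoc]
  obtain ⟨v, hv⟩ : ∃ v, C h *ᵥ v ∉ Submodule.span E {v} := hmoved h fun hs => hnc (hext fun y => by
    obtain ⟨d, hd⟩ := hs l
    simp only [← Matrix.mulVec_mulVec, hLvv, hCv, hd, H98.gl_mulVec_inv, smul_smul, mul_comm])
  obtain ⟨φ, hinj, hL, ⟨a, b, hab⟩, ε, hT, hεv, hεlv, hεu⟩ := coords _ v (hC2 h) hv
  obtain ⟨w, hw⟩ := four_word a b (hinj (by rw [map_mul, map_add, map_one, hab, hC2]))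
    (fun e => hnc (by rw [← hab, ← hL, ← map_mul, e, map_mul]))
  obtain ⟨gl, hglM, hglv⟩ : ∃ g ∈ M, (g : Matrix ι ι F) = Lv := by
    obtain ⟨g, hg, hgv⟩ := gens φ hL four_L (four_L * four_L) rL rL' rfl
    exact ⟨g, hg, hgv.trans hL⟩
  obtain ⟨gx, hgxM, hgxv⟩ : ∃ g ∈ M, (g : Matrix ι ι F) = φ (four_X a b) :=
    ⟨h * gl * h⁻¹, mul_mem (mul_mem hh hglM) (inv_mem hh), by
      rw [Units.val_mul, Units.val_mul, hglv, hab]⟩
  have hgen : ∀ i, ∃ g ∈ M, (g : Matrix ι ι F) = φ (four_gen (four_X a b) i) := by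
    intro i
    fin_cases i
    · exact ⟨gx, hgxM, hgxv⟩
    · exact ⟨gl, hglM, hglv.trans hL.symm⟩
    · exact gens φ hL _ _ rD rD' cD
    · exact gens φ hL _ _ rW rW cW
    · exact gens φ hL _ _ rU rU cU
  obtain ⟨g, hgM, hgv⟩ : ∃ g ∈ M, (g : Matrix ι ι F) = φ four_T := by
    rw [← hw]
    clear hw
    induction w with
    | nil => exact ⟨1, one_mem _, by rw [List.map_nil, List.prod_nil, map_one, Units.val_one]⟩
    | cons i w ih =>
      obtain ⟨g1, h1, e1⟩ := hgen i
      obtain ⟨g2, h2, e2⟩ := ih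
      exact ⟨g1 * g2, mul_mem h1 h2, by rw [List.map_cons, List.prod_cons, map_mul, Units.val_mul, e1, e2]⟩
  have hv0 : v ≠ 0 := fun e => hv (by rw [e, Matrix.mulVec_zero]; exact zero_mem _)
  have hε : ε ∈ transSpace M v := by
    refine ⟨hεv, fun t ht => ?_⟩
    rcases eq_or_ne t 0 with rfl | ht0
    · have : H98.transGL ((0 : F) • ε) v ht = 1 := H98.gl_ext fun y => by simp
      rw [this]; exact one_mem _
    · have ht1 : t = 1 := congrArg Units.val (hunit (Units.mk0 t ht0))
      refine (H98.gl_ext fun y => ?_ : H98.transGL (t • ε) v ht = g) ▸ hgM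
      rw [H98.transGL_mulVec, hgv, hT, ht1, one_smul]
  refine H.sl_le_of_transKer hv0 fun p hp => ?_
  by_contra hpv
  -- a linear map fixing `v` moves `p` to `C h v`
  set u := C h *ᵥ v with hu
  have hεp : ∀ k ∈ M, (k : Matrix ι ι F) *ᵥ v = v → ε ((k : Matrix ι ι F) *ᵥ p) = 0 := fun k hk hkv =>
    mem_transKer.1 (transKer_invariant hk hkv hp) ε hε
  obtain ⟨k, hk, hkv, c, hkp⟩ := H.exists_rep hv hpv
  -- scale `c` to one
  obtain ⟨ψ, p1, p2⟩ := exists_efunctional (S := Submodule.span E {v}) hv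
  have hs : scal u ψ p1 c⁻¹ ∈ M := hlin _ (scal_elin p1 _)
  have hsv : (scal u ψ p1 c⁻¹ : Matrix ι ι F) *ᵥ v = v := by
    rw [scal_mulVec, p2 v (Submodule.mem_span_singleton_self v), mul_zero, zero_smul, add_zero]
  have := hεp (scal u ψ p1 c⁻¹ * k) (mul_mem hs hk) (by
    rw [Units.val_mul, ← Matrix.mulVec_mulVec, hkv, hsv])
  rw [Units.val_mul, ← Matrix.mulVec_mulVec, hkp, scal_elin p1, scal_mulVec, p1, mul_one, ← one_smul E u,
    smul_smul, ← add_smul, smul_smul] at this
  have e : (c : E) * (1 + ((c⁻¹ : Eˣ) : E) - 1) * 1 = 1 := by simp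
  simp only [mul_one, add_sub_cancel_left] at this e
  ring_nf at this
  simp [hεu] at this

end Cfsg.Agent.H58.ExtField
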