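import Cfsg.Agent.H58.ExtField.Elements
import Cfsg.Agent.H99.Aschbacher.Algebra

/-!
# Overgroups of the semilinear group of a prime degree extension contain the special linear group

`M` contains the `E`-linear maps of determinant one and an element that is not semilinear.  Let `W` be the set of
`b : V → E` killing `E v` with `x ↦ x + b x • v` in `M` and `L` the algebra of endomorphisms preserving `W`.
Either `L` is everything, and `M` has transvections, or `L = E`; then the stabiliser of `v` and of the line `E v`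
acts on the line by field automorphisms, and a Sylow argument bounds the number of `M_v`-orbits on `E v`.
-/

set_option autoImplicit false
set_option linter.unusedSectionVars false
set_option linter.unusedVariables false

namespace Cfsg.Agent.H58.ExtField

open scoped Matrix

variable {ι : Type} [Fintype ι] [DecidableEq ι] {F : Type*} [Field F] [Fintype F]
variable {E : Type*} [Field E] [Fintype E] [Algebra F E] [Module E (ι → F)] [IsScalarTower F E (ι → F)]
variable {M : Subgroup (GL ι F)}

theorem card_E (F : Type*) [Field F] [Fintype F] (E : Type*) [Field E] [Fintype E] [Algebra F E] :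
    Nat.card E = Fintype.card F ^ Module.finrank F E := by
  rw [Module.natCard_eq_pow_finrank (K := F), Nat.card_eq_fintype_card]

/-! ### The stabiliser of `v` does not preserve the line of `v` -/

theorem eq_scalar_of_line {T : (ι → F) →ₗ[F] (ι → F)} (hm : ∀ v : ι → F, ∃ w, w ∉ Submodule.span E {v})
    (hT : ∀ y, T y ∈ Submodule.span E {y}) : ∃ d : E, ∀ y, T y = d • y := by
  choose d hd using fun y => Submodule.mem_span_singleton.1 (hT y)
  have key : ∀ a b : ι → F, a ≠ 0 → b ∉ Submodule.span E {a} → d b = d a := by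
    intro a b ha hb
    have h := hd (a + b)
    rw [map_add, ← hd a, ← hd b, smul_add] at h
    have h' : (d (a + b) - d a) • a + (d (a + b) - d b) • b = 0 := by
      rw [sub_smul, sub_smul]
      linear_combination (norm := module) h
    have hdb : d (a + b) - d b = 0 := by
      by_contra hne
      refine hb ?_
      rw [← inv_smul_smul₀ hne b, eq_neg_of_add_eq_zero_right h']
      exact Submodule.smul_mem _ _ (Submodule.neg_mem _
        (Submodule.smul_mem _ _ (Submodule.mem_span_singleton_self a)))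
    rw [hdb, zero_smul, add_zero] at h'
    have hda := (smul_eq_zero.1 h').resolve_right ha
    rw [← sub_eq_zero.1 hdb, sub_eq_zero.1 hda]
  obtain ⟨w0, hw0⟩ := hm 0
  have hw00 : w0 ≠ 0 := fun h => hw0 (by rw [h]; exact zero_mem _)
  obtain ⟨w1, hw1⟩ := hm w0
  have hw10 : w1 ≠ 0 := fun h => hw1 (by rw [h]; exact zero_mem _)
  refine ⟨d w0, fun y => ?_⟩
  by_cases hy : y ∈ Submodule.span E {w0}
  · rcases eq_or_ne y 0 with rfl | hy0
    · rw [map_zero, smul_zero]
    have hy1 : y ∉ Submodule.span E {w1} := by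
      intro h
      obtain ⟨c, hc⟩ := Submodule.mem_span_singleton.1 h
      have hc0 : c ≠ 0 := fun e => hy0 (by rw [← hc, e, zero_smul])
      exact hw1 (by rw [← inv_smul_smul₀ hc0 w1, hc]; exact Submodule.smul_mem _ _ hy)
    rw [← hd y, key w1 y hw10 hy1, key w0 w1 hw00 hw1]
  · rw [← hd y, key w0 y hw00 hy]

/-- `h` is semilinear once it is so for one element outside the base field. -/
theorem semi_of_one (hr : (Module.finrank F E).Prime) (h : GL ι F) {c : E}
    (hc : c ∉ Set.range (algebraMap F E))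
    (hd : ∃ d : E, ∀ x, (h : Matrix ι ι F) *ᵥ (c • x) = d • ((h : Matrix ι ι F) *ᵥ x)) : Semi E h := by
  let S : Subalgebra F E :=
    { carrier := {a | ∃ d : E, ∀ x, (h : Matrix ι ι F) *ᵥ (a • x) = d • ((h : Matrix ι ι F) *ᵥ x)}
      mul_mem' := fun {a b} ⟨da, ha⟩ ⟨db, hb⟩ => ⟨da * db, fun x => by rw [mul_smul, ha, hb, mul_smul]⟩
      one_mem' := ⟨1, fun x => by rw [one_smul, one_smul]⟩
      add_mem' := fun {a b} ⟨da, ha⟩ ⟨db, hb⟩ => ⟨da + db, fun x => by
        rw [add_smul, Matrix.mulVec_add, ha, hb, add_smul]⟩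
      zero_mem' := ⟨0, fun x => by rw [zero_smul, zero_smul, Matrix.mulVec_zero]⟩
      algebraMap_mem' := fun f => ⟨algebraMap F E f, fun x => by
        rw [algebraMap_smul, algebraMap_smul, Matrix.mulVec_smul]⟩ }
  rcases (Subalgebra.isSimpleOrder_of_finrank_prime F E hr).eq_bot_or_eq_top S with h0 | h0
  · exact absurd (Algebra.mem_bot.1 (h0 ▸ (hd : c ∈ S) : c ∈ (⊥ : Subalgebra F E))) hc
  · exact fun a => (h0 ▸ Algebra.mem_top : a ∈ S)

/-- The orbit of `w` under the stabiliser of `x`. -/
def Orb (M : Subgroup (GL ι F)) (x w : ι → F) : Set (ι → F) :=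
  {y | ∃ h ∈ M, (h : Matrix ι ι F) *ᵥ x = x ∧ (h : Matrix ι ι F) *ᵥ w = y}

theorem orb_card (g : GL ι F) (hg : g ∈ M) (x w : ι → F) :
    Nat.card (Orb M ((g : Matrix ι ι F) *ᵥ x) ((g : Matrix ι ι F) *ᵥ w)) = Nat.card (Orb M x w) := by
  have e : Orb M ((g : Matrix ι ι F) *ᵥ x) ((g : Matrix ι ι F) *ᵥ w) =
      (fun y => (g : Matrix ι ι F) *ᵥ y) '' Orb M x w := by
    ext y
    constructor
    · rintro ⟨h, hh, hx, hy⟩
      refine ⟨((g⁻¹ * h * g : GL ι F) : Matrix ι ι F) *ᵥ w,
        ⟨g⁻¹ * h * g, mul_mem (mul_mem (inv_mem hg) hh) hg, ?_, rfl⟩, ?_⟩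
      · simp only [Units.val_mul, ← Matrix.mulVec_mulVec, hx]
        exact H98.gl_inv_mulVec g x
      · simp only [Units.val_mul, ← Matrix.mulVec_mulVec, hy]
        exact H98.gl_mulVec_inv g y
    · rintro ⟨_, ⟨h, hh, hx, rfl⟩, rfl⟩
      refine ⟨g * h * g⁻¹, mul_mem (mul_mem hg hh) (inv_mem hg), ?_, ?_⟩ <;>
        simp only [Units.val_mul, ← Matrix.mulVec_mulVec, H98.gl_inv_mulVec, hx]
  rw [e]
  exact Nat.card_image_of_injective (H98.gl_mulVec_injective g) _

theorem Ctx.card_le_orb (H : Ctx E M) {x w y : ι → F} (hx : x ≠ 0) (hy : y ∈ Orb M x w)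
    (hyx : y ∉ Submodule.span E {x}) : Nat.card E ≤ Nat.card (Orb M x w) := by
  obtain ⟨h, hh, h1, h2⟩ := hy
  refine Nat.card_le_card_of_injective (fun a : E => (⟨y + a • x, ?_⟩ : Orb M x w)) ?_
  · obtain ⟨g, hg, hgx, hgy⟩ := H.exists_translate hyx a
    refine ⟨g * h, mul_mem hg hh, ?_, ?_⟩
    · rw [Units.val_mul, ← Matrix.mulVec_mulVec, h1]
      simpa using hgx 1
    · rw [Units.val_mul, ← Matrix.mulVec_mulVec, h2, hgy]
  · intro a b hab
    have hab' := congrArg Subtype.val hab
    simp only [add_right_inj] at hab'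
    by_contra hne
    have := sub_smul a b x
    rw [hab', sub_self] at this
    exact hne (sub_eq_zero.1 ((smul_eq_zero.1 this).resolve_right hx))

/-- For every scalar outside the base field, the stabiliser of `v` moves `c v` out of the line of `v`. -/
theorem Ctx.exists_out (H : Ctx E M) {c : E} (hc : c ∉ Set.range (algebraMap F E)) {v : ι → F}
    (hv : v ≠ 0) :
    ∃ h ∈ M, (h : Matrix ι ι F) *ᵥ v = v ∧
      (h : Matrix ι ι F) *ᵥ (c • v) ∉ Submodule.span E {v} := by
  by_contra hcon
  push Not at hcon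
  have hc0 : c ≠ 0 := fun e => hc ⟨0, by rw [e, map_zero]⟩
  have hsmall : Nat.card (Orb M v (c • v)) < Nat.card E := by
    have hsub : Orb M v (c • v) ⊆ (fun a : E => a • v) '' {a | a ≠ 0} := by
      rintro y ⟨h, hh, h1, h2⟩
      obtain ⟨a, ha⟩ := Submodule.mem_span_singleton.1 (h2 ▸ hcon h hh h1)
      refine ⟨a, fun e => ?_, ha⟩
      rw [← ha, e, zero_smul] at h2
      exact smul_ne_zero hc0 hv (H98.gl_mulVec_injective h (h2.trans (Matrix.mulVec_zero _).symm))
    calc Nat.card (Orb M v (c • v)) ≤ Nat.card ((fun a : E => a • v) '' {a : E | a ≠ 0}) :=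
          Nat.card_mono (Set.toFinite _) hsub
      _ ≤ Nat.card {a : E | a ≠ 0} := Nat.card_image_le (Set.toFinite _)
      _ < Nat.card E := by
          refine Finite.card_subtype_lt (x := (0 : E)) ?_
          exact fun h => h rfl
  obtain ⟨h, hh, hns⟩ := H.notSemi
  refine hns (semi_of_one H.prime h hc ?_)
  let T : (ι → F) →ₗ[F] (ι → F) := Matrix.mulVecLin (h : Matrix ι ι F) ∘ₗ
    (DistribSMul.toLinearMap F (ι → F) c) ∘ₗ Matrix.mulVecLin ((h⁻¹ : GL ι F) : Matrix ι ι F)
  have hT : ∀ y, T y = (h : Matrix ι ι F) *ᵥ (c • (((h⁻¹ : GL ι F) : Matrix ι ι F) *ᵥ y)) := fun y => rfl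
  obtain ⟨d, hd⟩ := eq_scalar_of_line (E := E) (T := T) H.indep fun y => by
    rcases eq_or_ne y 0 with rfl | hy
    · rw [map_zero]; exact zero_mem _
    have hx : ((h⁻¹ : GL ι F) : Matrix ι ι F) *ᵥ y ≠ 0 := fun e => hy (by
      rw [← H98.gl_mulVec_inv h y, e, Matrix.mulVec_zero])
    obtain ⟨g, hg, hgl, hgv⟩ := H.exists_trans hv hx
    have h1 := orb_card (h * g) (mul_mem hh hg) v (c • v)
    rw [Units.val_mul, ← Matrix.mulVec_mulVec, ← Matrix.mulVec_mulVec, hgl, hgv, H98.gl_mulVec_inv] at h1
    by_contra hout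
    have := H.card_le_orb (w := T y) hy ⟨1, one_mem _, by simp, by simp⟩ hout
    rw [hT, h1] at this
    omega
  refine ⟨d, fun x => ?_⟩
  have := hd ((h : Matrix ι ι F) *ᵥ x)
  rwa [hT, H98.gl_inv_mulVec] at this

/-! ### From transvections to `SL` -/

/-- The functionals whose transvections centred at `v` lie in `M`, with all their multiples. -/
def transSpace (M : Subgroup (GL ι F)) (v : ι → F) : Submodule F ((ι → F) →ₗ[F] F) where
  carrier := {f | f v = 0 ∧ ∀ (a : F) (h : (a • f) v = 0), H98.transGL (a • f) v h ∈ M}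
  zero_mem' := ⟨rfl, fun a h => by
    have : H98.transGL (a • (0 : (ι → F) →ₗ[F] F)) v h = 1 := H98.gl_ext fun x => by simp
    rw [this]; exact one_mem _⟩
  add_mem' := by
    rintro f g ⟨hf, hf'⟩ ⟨hg, hg'⟩
    refine ⟨by rw [LinearMap.add_apply, hf, hg, add_zero], fun a h => ?_⟩
    have hf0 : (a • f) v = 0 := by rw [LinearMap.smul_apply, hf, smul_zero]
    have hg0 : (a • g) v = 0 := by rw [LinearMap.smul_apply, hg, smul_zero]
    have : H98.transGL (a • (f + g)) v h = H98.transGL (a • f) v hf0 * H98.transGL (a • g) v hg0 :=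
      H98.gl_ext fun x => by
        simp only [Units.val_mul, ← Matrix.mulVec_mulVec, H98.transGL_mulVec, map_add, map_smul,
          LinearMap.smul_apply, LinearMap.add_apply, hf, smul_zero, smul_eq_mul, mul_zero, add_zero,
          smul_add, add_smul]
        abel
    rw [this]
    exact mul_mem (hf' a hf0) (hg' a hg0)
  smul_mem' := by
    rintro b f ⟨hf, hf'⟩
    refine ⟨by rw [LinearMap.smul_apply, hf, smul_zero], fun a h => ?_⟩
    simp only [smul_smul]
    exact hf' _ _

/-- The common kernel of the functionals of the transvections at `v`. -/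
def transKer (M : Subgroup (GL ι F)) (v : ι → F) : Submodule F (ι → F) :=
  (transSpace M v).dualCoannihilator

theorem mem_transKer {v x : ι → F} : x ∈ transKer M v ↔ ∀ f ∈ transSpace M v, f x = 0 :=
  Submodule.mem_dualCoannihilator _

theorem self_mem_transKer (v : ι → F) : v ∈ transKer M v := mem_transKer.2 fun _ hf => hf.1

theorem transKer_invariant {v : ι → F} {h : GL ι F} (hh : h ∈ M)
    (hv : (h : Matrix ι ι F) *ᵥ v = v) {x : ι → F} (hx : x ∈ transKer M v) :
    (h : Matrix ι ι F) *ᵥ x ∈ transKer M v := by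
  refine mem_transKer.2 fun f hf => mem_transKer.1 hx (f ∘ₗ Matrix.mulVecLin (h : Matrix ι ι F)) ?_
  refine ⟨by rw [LinearMap.comp_apply, Matrix.mulVecLin_apply, hv, hf.1], fun a ha => ?_⟩
  have ha' : (a • f) v = 0 := by rw [LinearMap.smul_apply, hf.1, smul_zero]
  have := mul_mem (mul_mem (inv_mem hh) (hf.2 a ha')) hh
  refine (H98.gl_ext fun y => ?_ : H98.transGL (a • f ∘ₗ Matrix.mulVecLin (h : Matrix ι ι F)) v ha =
    h⁻¹ * H98.transGL (a • f) v ha' * h) ▸ this
  simp only [Units.val_mul, ← Matrix.mulVec_mulVec, H98.transGL_mulVec, Matrix.mulVec_add, Matrix.mulVec_smul,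
    H98.gl_inv_mulVec, LinearMap.smul_apply, LinearMap.comp_apply, Matrix.mulVecLin_apply]
  congr 2
  conv_rhs => rw [← hv, H98.gl_inv_mulVec]

/-- Once the transvections at `v` have common kernel inside the line of `v`, `M` contains `SL`. -/
theorem Ctx.sl_le_of_transKer (H : Ctx E M) {v : ι → F} (hv : v ≠ 0)
    (hW : ∀ x ∈ transKer M v, x ∈ Submodule.span E {v}) : Cfsg.Geo.specialLinear ι F ≤ M := by
  have hW' : transKer M v = Submodule.span F {v} := by
    refine le_antisymm (fun x hx => ?_) ((Submodule.span_singleton_le_iff_mem _ _).2 (self_mem_transKer v))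
    obtain ⟨c, rfl⟩ := Submodule.mem_span_singleton.1 (hW x hx)
    by_cases hc : c ∈ Set.range (algebraMap F E)
    · obtain ⟨a, rfl⟩ := hc
      rw [algebraMap_smul]
      exact Submodule.smul_mem _ _ (Submodule.mem_span_singleton_self v)
    · obtain ⟨h, hh, h1, h2⟩ := H.exists_out hc hv
      exact absurd (hW _ (transKer_invariant hh h1 hx)) h2
  have hall : ∀ f : (ι → F) →ₗ[F] F, f v = 0 → f ∈ transSpace M v := by
    intro f hf
    rw [← Subspace.dualCoannihilator_dualAnnihilator_eq (W := transSpace M v), Submodule.mem_dualAnnihilator]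
    intro x hx
    obtain ⟨a, rfl⟩ := Submodule.mem_span_singleton.1 (hW' ▸ hx : x ∈ Submodule.span F {v})
    rw [map_smul, hf, smul_zero]
  refine H98.sl_le_of_transvections M fun φ a ha => ?_
  rcases eq_or_ne a 0 with rfl | ha0
  · have : H98.transGL φ 0 ha = 1 := H98.gl_ext fun x => by simp
    rw [this]; exact one_mem _
  obtain ⟨g, hg, -, hgv⟩ := H.exists_trans hv ha0
  have hφ : (φ ∘ₗ Matrix.mulVecLin (g : Matrix ι ι F)) v = 0 := by
    rw [LinearMap.comp_apply, Matrix.mulVecLin_apply, hgv, ha]
  have := mul_mem (mul_mem hg ((hall _ hφ).2 1 (by rw [one_smul, hφ]))) (inv_mem hg)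
  refine (H98.gl_ext fun y => ?_ : H98.transGL φ a ha = g * H98.transGL _ v _ * g⁻¹) ▸ this
  simp only [Units.val_mul, ← Matrix.mulVec_mulVec, H98.transGL_mulVec, Matrix.mulVec_add, Matrix.mulVec_smul,
    one_smul, LinearMap.comp_apply, Matrix.mulVecLin_apply, H98.gl_mulVec_inv, hgv]

/-! ### The algebra preserving the translations -/

/-- The `b` killing the line of `v` whose element lies in `M`. -/
def InW (M : Subgroup (GL ι F)) (v : ι → F) (b : (ι → F) →ₗ[F] E) : Prop := Kills b v ∧ el v b ∈ M

theorem inW_zero (v : ι → F) : InW M v (0 : (ι → F) →ₗ[F] E) :=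
  ⟨kills_zero v, by rw [el_zero]; exact one_mem _⟩

theorem inW_add {v : ι → F} {a b : (ι → F) →ₗ[F] E} (ha : InW M v a) (hb : InW M v b) :
    InW M v (a + b) := ⟨kills_add ha.1 hb.1, el_mul ha.1 hb.1 ▸ mul_mem ha.2 hb.2⟩

theorem Ctx.inW_lin (H : Ctx E M) {v : ι → F} {φ : (ι → F) →ₗ[E] E} (h : φ v = 0) :
    InW M v (φ.restrictScalars F) := ⟨kills_lin h, H.el_mem h⟩

/-- The scalars preserving the translations form everything. -/
theorem Ctx.inW_smul (H : Ctx E M) {v : ι → F} (hv : v ≠ 0) (a : E) {b : (ι → F) →ₗ[F] E}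
    (hb : InW M v b) : InW M v (a • b) := by
  classical
  let S : Subring E :=
    { carrier := {c : E | ∀ b : (ι → F) →ₗ[F] E, InW M v b → InW M v (c • b)}
      mul_mem' := fun {c d} hc hd b hb => by rw [mul_smul]; exact hc _ (hd b hb)
      one_mem' := fun b hb => by rwa [one_smul]
      add_mem' := fun {c d} hc hd b hb => by rw [add_smul]; exact inW_add (hc b hb) (hd b hb)
      zero_mem' := fun b hb => by rw [zero_smul]; exact inW_zero v
      neg_mem' := fun {c} hc b hb => by
        obtain ⟨h1, h2⟩ := hc b hb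
        rw [show (-c) • b = -(c • b) from LinearMap.ext fun x => by simp]
        exact ⟨fun x => by rw [LinearMap.neg_apply, h1, neg_zero], el_neg h1 ▸ inv_mem h2⟩ }
  let K : Subfield E :=
    { S with
      inv_mem' := fun c hc => by
        show c⁻¹ ∈ S
        rcases eq_or_ne c 0 with rfl | hc0
        · rw [inv_zero]; exact S.zero_mem
        · have h2 : 2 ≤ Fintype.card E := Fintype.one_lt_card
          have e : c⁻¹ = c ^ (Fintype.card E - 2) := by
            refine inv_eq_of_mul_eq_one_right ?_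
            rw [← pow_succ', show Fintype.card E - 2 + 1 = Fintype.card E - 1 by omega]
            exact FiniteField.pow_card_sub_one_eq_one c hc0
          rw [e]; exact pow_mem hc _ }
  suffices hK : ∀ c, c ∈ K from hK a b hb
  set q := Fintype.card F with hqdef
  have hU : ∀ u : Eˣ, ((u ^ (q - 1) : Eˣ) : E) ∈ K := by
    intro u b hb
    have hv' : v ∉ (⊥ : Submodule E (ι → F)) := by simpa using hv
    obtain ⟨ψ, h1, -⟩ := exists_efunctional hv'
    have hk := H.scal_mem h1 u
    have hm := mul_mem (mul_mem hk hb.2) (inv_mem hk)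
    have hkill : Kills (((u ^ (q - 1) : Eˣ) : E) • b) v := fun x => by
      rw [LinearMap.smul_apply, hb.1, smul_zero]
    refine ⟨hkill, (H98.gl_ext fun x => ?_ : el v (((u ^ (q - 1) : Eˣ) : E) • b) =
      scal v ψ h1 (u ^ (q - 1)) * el v b * (scal v ψ h1 (u ^ (q - 1)))⁻¹) ▸ hm⟩
    set w := u ^ (q - 1)
    have hb' : b (((scal v ψ h1 w)⁻¹ : GL ι F).1 *ᵥ x) = b x := by
      rw [← map_inv, scal_mulVec, map_add, hb.1, add_zero]
    simp only [Units.val_mul, ← Matrix.mulVec_mulVec]
    rw [el_mulVec hkill, el_mulVec hb.1, Matrix.mulVec_add, H98.gl_mulVec_inv, hb', scal_elin h1 w,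
      scal_mulVec, h1, mul_one, LinearMap.smul_apply, smul_eq_mul, smul_add, smul_smul, ← add_smul]
    congr 2
    ring
  -- a subfield containing all powers of exponent `q - 1` is everything
  have hq2 : 2 ≤ q := Fintype.one_lt_card
  set Q := Fintype.card E with hQdef
  have hQq : Q = q ^ Module.finrank F E := by
    rw [hQdef, hqdef, ← Nat.card_eq_fintype_card, card_E F E]
  let f : Eˣ → E := fun u => ((u ^ (q - 1) : Eˣ) : E)
  have hfib : ∀ y ∈ Finset.univ.image f, (Finset.univ.filter fun u => f u = y).card ≤ q - 1 := by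
    intro y _
    rcases (Finset.univ.filter fun u => f u = y).eq_empty_or_nonempty with h0 | ⟨u0, hu0⟩
    · rw [h0]; simp
    have hsub : ((Finset.univ.filter fun u => f u = y).image fun u : Eˣ => (u : E) / (u0 : E)) ⊆
        (Polynomial.nthRoots (q - 1) (1 : E)).toFinset := by
      intro z hz
      obtain ⟨u, hu, rfl⟩ := Finset.mem_image.1 hz
      rw [Multiset.mem_toFinset, Polynomial.mem_nthRoots (by omega), div_pow,
        ← Units.val_pow_eq_pow_val, ← Units.val_pow_eq_pow_val,
        show ((u ^ (q - 1) : Eˣ) : E) = ((u0 ^ (q - 1) : Eˣ) : E) from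
          (Finset.mem_filter.1 hu).2.trans (Finset.mem_filter.1 hu0).2.symm,
        div_self (Units.ne_zero _)]
    have hinj : Function.Injective fun u : Eˣ => (u : E) / (u0 : E) := fun u u' h =>
      Units.ext ((div_left_inj' (Units.ne_zero u0)).1 h)
    rw [← Finset.card_image_of_injective _ hinj]
    exact (Finset.card_le_card hsub).trans
      ((Multiset.toFinset_card_le _).trans (Polynomial.card_nthRoots _ _))
  have hcount : Q - 1 ≤ (q - 1) * (Finset.univ.image f).card := by
    refine le_trans (le_of_eq ?_) (Finset.card_le_mul_card_image _ (q - 1) hfib)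
    rw [Finset.card_univ, Fintype.card_units]
  have hKcard : (Finset.univ.image f).card + 1 ≤ Nat.card K := by
    have h1 : insert 0 (Finset.univ.image f) ⊆ Finset.univ.filter (· ∈ K) := by
      intro z hz
      rcases Finset.mem_insert.1 hz with rfl | hz
      · simpa using K.zero_mem
      · obtain ⟨u, -, rfl⟩ := Finset.mem_image.1 hz
        exact Finset.mem_filter.2 ⟨Finset.mem_univ _, hU u⟩
    have h2 : (0 : E) ∉ Finset.univ.image f := by
      simp only [Finset.mem_image, Finset.mem_univ, true_and, not_exists]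
      exact fun u => Units.ne_zero _
    calc (Finset.univ.image f).card + 1 = (insert 0 (Finset.univ.image f)).card :=
          (Finset.card_insert_of_notMem h2).symm
      _ ≤ (Finset.univ.filter (· ∈ K)).card := Finset.card_le_card h1
      _ = Nat.card K := by rw [Nat.card_eq_fintype_card, ← Fintype.card_subtype]
  set s := Nat.card K with hsdef
  have hd := Module.natCard_eq_pow_finrank (K := K) (V := E)
  rw [Nat.card_eq_fintype_card, ← hsdef, ← hQdef] at hd
  rcases Nat.lt_or_ge 1 (Module.finrank K E) with hd2 | hd1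
  · exfalso
    have hs2 : 1 < s := by rw [hsdef]; exact Finite.one_lt_card
    have hsq : s * s ≤ Q := by
      rw [hd, ← pow_two]; exact Nat.pow_le_pow_right (by omega) hd2
    have hQ : q * q ≤ Q := by
      rw [hQq, ← pow_two]; exact Nat.pow_le_pow_right (by omega) H.prime.two_le
    have h3 : (q - 1) * (Finset.univ.image f).card ≤ (q - 1) * (s - 1) :=
      Nat.mul_le_mul_left _ (by omega)
    have h4 : Q - 1 ≤ (q - 1) * (s - 1) := hcount.trans h3
    rcases le_total q s with hle | hle
    · have h5 : (q - 1) * (s - 1) ≤ (s - 1) * (s - 1) := Nat.mul_le_mul_right _ (by omega)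
      obtain ⟨t, hst⟩ : ∃ t, s = t + 2 := ⟨s - 2, by omega⟩
      rw [hst] at h4 h5 hsq
      simp only [show t + 2 - 1 = t + 1 by omega] at h4 h5
      have h6 : Q ≤ (t + 1) * (t + 1) + 1 := by omega
      nlinarith
    · have h5 : (q - 1) * (s - 1) ≤ (q - 1) * (q - 1) := Nat.mul_le_mul_left _ (by omega)
      obtain ⟨t, hqt⟩ : ∃ t, q = t + 2 := ⟨q - 2, by omega⟩
      rw [hqt] at h4 h5 hQ
      simp only [show t + 2 - 1 = t + 1 by omega] at h4 h5
      have h6 : Q ≤ (t + 1) * (t + 1) + 1 := by omega
      nlinarith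
  · intro c
    have hfull : Nat.card K = Fintype.card E := by
      have : Module.finrank K E = 1 := le_antisymm hd1 Module.finrank_pos
      rw [this, pow_one] at hd
      rw [← hsdef]; exact hd.symm
    by_contra hcK
    have hlt : Nat.card K < Fintype.card E := by
      rw [Nat.card_eq_fintype_card]
      exact Fintype.card_subtype_lt (p := (· ∈ K)) hcK
    omega

/-- The endomorphisms preserving the translations, as an algebra. -/
noncomputable def preserver (H : Ctx E M) {v : ι → F} (hv : v ≠ 0) : Subalgebra F (Module.End F E) where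
  carrier := {a | ∀ b, InW M v b → InW M v (a ∘ₗ b)}
  mul_mem' {a b} ha hb c hc := ha _ (hb c hc)
  one_mem' c hc := hc
  add_mem' {a b} ha hb c hc := by rw [LinearMap.add_comp]; exact inW_add (ha c hc) (hb c hc)
  zero_mem' c hc := by rw [LinearMap.zero_comp]; exact inW_zero v
  algebraMap_mem' t c hc := by
    have := H.inW_smul hv (algebraMap F E t) hc
    convert this using 1
    exact LinearMap.ext fun x => by simp [Algebra.smul_def]

theorem Ctx.lmul_mem (H : Ctx E M) {v : ι → F} (hv : v ≠ 0) (a : E) :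
    LinearMap.mulLeft F a ∈ preserver H hv := fun b hb => by
  convert H.inW_smul hv a hb using 1
  exact LinearMap.ext fun x => rfl

/-- If some endomorphism preserving the translations is not a multiplication, all preserve them. -/
theorem Ctx.preserver_top (H : Ctx E M) {v : ι → F} (hv : v ≠ 0)
    (hne : ∃ a ∈ preserver H hv, ∃ x : E, a x ≠ a 1 * x) (φ : Module.End F E) :
    φ ∈ preserver H hv := by
  classical
  obtain ⟨a, ha, x0, hx0⟩ := hne
  let A := preserver H hv
  have : IsSimpleModule A E := by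
    have : Nontrivial (Submodule A E) := (Submodule.nontrivial_iff A).2 inferInstance
    refine { eq_bot_or_eq_top := fun W => ?_ }
    by_cases hW : ∀ w ∈ W, w = 0
    · exact Or.inl ((Submodule.eq_bot_iff _).2 hW)
    · push Not at hW
      obtain ⟨w, hw, hw0⟩ := hW
      refine Or.inr ((Submodule.eq_top_iff').2 fun y => ?_)
      have := W.smul_mem (⟨LinearMap.mulLeft F (y / w), H.lmul_mem hv _⟩ : A) hw
      simpa [Subalgebra.smul_def, hw0] using this
  have hD : ∀ d : Module.End A E, ∃ c : F, ∀ u, d u = c • u := by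
    intro d
    have hlin : ∀ y, d y = d 1 * y := fun y => by
      have := d.map_smul (⟨LinearMap.mulLeft F y, H.lmul_mem hv y⟩ : A) 1
      simpa [Subalgebra.smul_def, mul_comm] using this
    have hcomm : ∀ y, a (d 1 * y) = d 1 * a y := fun y => by
      have := d.map_smul (⟨a, ha⟩ : A) y
      rw [Subalgebra.smul_def, Subalgebra.smul_def, hlin (a • y), hlin y] at this
      simpa using this.symm
    let S : Subalgebra F E :=
      { carrier := {c | ∀ y, a (c * y) = c * a y}
        mul_mem' := fun {b c} hb hc y => by rw [mul_assoc, hb, hc, mul_assoc]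
        one_mem' := fun y => by rw [one_mul, one_mul]
        add_mem' := fun {b c} hb hc y => by rw [add_mul, map_add, hb, hc, add_mul]
        zero_mem' := fun y => by rw [zero_mul, zero_mul, map_zero]
        algebraMap_mem' := fun t y => by rw [← Algebra.smul_def, ← Algebra.smul_def, map_smul] }
    rcases (Subalgebra.isSimpleOrder_of_finrank_prime F E H.prime).eq_bot_or_eq_top S with h0 | h0
    · obtain ⟨c, hc⟩ := Algebra.mem_bot.1 (h0 ▸ (hcomm : d 1 ∈ S) : d 1 ∈ (⊥ : Subalgebra F E))
      exact ⟨c, fun u => by rw [hlin, ← hc, Algebra.smul_def]⟩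
    · have := (h0 ▸ Algebra.mem_top : x0 ∈ S) 1
      rw [mul_one] at this
      exact absurd (this.trans (mul_comm _ _)) hx0
  obtain ⟨b, hb⟩ := H99.Asch.density (F := F) (A := A) (U := E) hD φ
  have : (b : Module.End F E) = φ := LinearMap.ext fun u => hb u
  exact this ▸ b.2

/-- If the translations have more endomorphisms than `E`, then `M` contains `SL`. -/
theorem Ctx.sl_le_of_preserver (H : Ctx E M) {v : ι → F} (hv : v ≠ 0)
    (hne : ∃ a ∈ preserver H hv, ∃ x : E, a x ≠ a 1 * x) : Cfsg.Geo.specialLinear ι F ≤ M := by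
  classical
  refine H.sl_le_of_transKer hv fun x hx => ?_
  by_contra hxv
  obtain ⟨φ, h1, h2⟩ := exists_efunctional hxv
  have hφv : φ v = 0 := h2 v (Submodule.mem_span_singleton_self v)
  have h10 : (1 : E) ∉ (⊥ : Submodule F E) := by simp
  obtain ⟨ε, hε, -⟩ := Submodule.exists_dual_map_eq_bot_of_notMem h10 inferInstance
  let f : (ι → F) →ₗ[F] F := ε ∘ₗ φ.restrictScalars F
  have hf : f ∈ transSpace M v := by
    refine ⟨by simp [f, hφv], fun t ht => ?_⟩
    let a : Module.End F E := (Algebra.linearMap F E) ∘ₗ (t • ε)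
    obtain ⟨hk, hm⟩ := H.preserver_top hv hne a _ (H.inW_lin hφv)
    refine (H98.gl_ext fun y => ?_ : H98.transGL (t • f) v ht = el v (a ∘ₗ φ.restrictScalars F)) ▸ hm
    rw [H98.transGL_mulVec, el_mulVec hk]
    simp only [a, f, LinearMap.comp_apply, LinearMap.smul_apply, Algebra.linearMap_apply, algebraMap_smul]
  have := mem_transKer.1 hx f hf
  simp [f, h1, hε] at this

end Cfsg.Agent.H58.ExtField
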